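import Cfsg.Agent.Char.BrauerSuzuki

/-! The Brauer-Suzuki argument for a trivial-intersection set. -/

set_option autoImplicit false

namespace Cfsg.Agent.MCF

open Cfsg Subgroup Cfsg.Agent.Char

theorem bs_pair {G : Type*} [Group G] [Fintype G] (C N : Subgroup G) (hCN : C ≤ N)
    (hconj : ∀ g ∈ N, ∀ y ∈ C, g * y * g⁻¹ ∈ C) (hidx : (C.subgroupOf N).index = 2)
    (lam : C →* ℂˣ) {s x : G} (hsN : s ∈ N) (hs : s ∉ C) (hxC : x ∈ C) (hsx : s * x * s⁻¹ = x⁻¹)
    (hlx : lam ⟨x, hxC⟩ ^ 2 ≠ 1)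
    (hTI0 : ∀ (g : G) (y : C), lam y ≠ 1 → g * y * g⁻¹ ∈ C → g ∈ N) :
    ∃ χ₁ χ₂ : G → ℂ, IsIrrCharacter G χ₁ ∧ IsIrrCharacter G χ₂ ∧
      ∀ g : G, (∀ (a : G) (y : C), lam y ≠ 1 → a * g * a⁻¹ ≠ y) → χ₁ g - χ₂ g = 1 := by
  classical
  have := Fintype.ofFinite N
  have hn : (C.subgroupOf N).Normal := ⟨fun y hy g => hconj g g.2 y hy⟩
  have := Fintype.ofFinite (C.subgroupOf N)
  set lam' : C.subgroupOf N →* ℂˣ := lam.comp (subgroupOfEquivOfLe hCN).toMonoidHom with hlam'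
  set ψ : C.subgroupOf N → ℂ := fun y => (lam' y : ℂ) with hψ
  have hψi : IsIrrCharacter _ ψ := isIrrCharacter_linear lam'
  have hψv : ∀ y : C.subgroupOf N, ψ y = lam ⟨((y : N) : G), y.2⟩ := fun y => rfl
  set x' : C.subgroupOf N := ⟨⟨x, hCN hxC⟩, hxC⟩ with hx'
  have hψx : lam' x' ^ 2 ≠ 1 := hlx
  have hψ1 : ψ ≠ fun _ => 1 := fun h => by
    have e : lam' x' = 1 := Units.ext (congrFun h x')
    exact hψx (by rw [e, one_pow])
  have hsI : (⟨s, hsN⟩ : N) ∉ inertia (C.subgroupOf N) ψ := by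
    rw [mem_inertia']
    intro h
    have h1 := h x'
    have h2 : (⟨(⟨s, hsN⟩ : N) * x' * (⟨s, hsN⟩ : N)⁻¹,
        hn.conj_mem _ x'.2 _⟩ : C.subgroupOf N) = x'⁻¹ :=
      Subtype.ext (Subtype.ext hsx)
    rw [h2] at h1
    have e : lam' x'⁻¹ = lam' x' := Units.ext h1
    rw [map_inv, inv_eq_iff_mul_eq_one, ← sq] at e
    exact hψx e
  have hind : IsIrrCharacter N (indFun (C.subgroupOf N) ψ) := by
    refine isIrr_indFun_of_forall_ne _ hψi fun g hg h => hsI ?_
    have h1 : g⁻¹ * ⟨s, hsN⟩ ∈ C.subgroupOf N := by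
      rw [mul_mem_iff_of_index_two hidx, inv_mem_iff]
      exact iff_of_false hg hs
    have h2 := mul_mem ((mem_inertia _).2 h) (le_inertia _ hψi.isClassFunction h1)
    simpa using h2
  have h11 : classInner (indFun (C.subgroupOf N) fun _ => 1)
      (indFun (C.subgroupOf N) fun _ => 1) = 2 := by
    rw [classInner_indFun_self_normal _ isIrrCharacter_one]
    have : inertia (C.subgroupOf N) (fun _ => (1 : ℂ)) = ⊤ := by
      ext g; simp [mem_inertia']
    rw [this, relIndex_top_right, hidx]; norm_num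
  have h01 : classInner (indFun (C.subgroupOf N) ψ) (indFun (C.subgroupOf N) fun _ => 1) = 0 :=
    classInner_indFun_indFun_eq_zero _ hψi isIrrCharacter_one fun g => hψ1.symm
  have h10 : classInner (indFun (C.subgroupOf N) fun _ => 1) (indFun (C.subgroupOf N) ψ) = 0 := by
    rw [← classInner_conj_symm, h01, map_zero]
  set θ : N → ℂ := indFun (C.subgroupOf N) (ψ - fun _ => 1) with hθ
  have hθg : IsGeneralizedCharacter N θ :=
    isGeneralizedCharacter_indFun _ (hψi.isGen.sub isGen_one)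
  have hθθ : classInner θ θ = 3 := by
    rw [hθ, indFun_sub, classInner_sub_left, classInner_sub_right, classInner_sub_right,
      hind.inner_self, h01, h10, h11]
    norm_num
  have hθ1 : classInner θ (fun _ => 1) = -1 := by
    rw [hθ, classInner_indFun_left _ _ (isClassFunction_const 1), classInner_sub_left,
      hψi.inner_eq_zero isIrrCharacter_one hψ1, isIrrCharacter_one.inner_self]
    norm_num
  set X : Set G := {y | y ∈ C ∧ ∃ a ∈ N, ∃ z : C, lam z ≠ 1 ∧ a * y * a⁻¹ = z} with hX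
  have hθX : ∀ y : N, (y : G) ∉ X → θ y = 0 := by
    intro y hy
    by_cases h : (y : G) ∈ C
    · refine indFun_eq_zero _ _ _ fun g hg => ?_
      rw [Pi.sub_apply, hψv]
      by_contra h0
      refine hy ⟨h, g, g.2, ⟨_, hg⟩, fun e => h0 ?_, rfl⟩
      erw [e]
      simp
    · exact indFun_eq_zero_of_normal _ _ h
  have hone : ∀ (a : G) (y : C), lam y ≠ 1 → a * 1 * a⁻¹ ≠ y := fun a y hy e =>
    hy (by rw [show y = 1 from Subtype.ext (by simpa using e.symm), map_one])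
  have hTI : ∀ g : G, g ∉ N → ∀ t ∈ X, g * t * g⁻¹ ∈ X → t = 1 := by
    rintro g hg t ⟨-, a, ha, z, hz, e⟩ ht'
    have h1 := hTI0 (g * a⁻¹) z hz (by
      rw [← e]
      convert ht'.1 using 1
      group)
    exact absurd (by simpa using mul_mem h1 ha) hg
  have hθ0 : θ 1 = 0 := hθX 1 fun ⟨_, a, _, z, hz, e⟩ => hone a z hz e
  have hΘΘ : classInner (indFun N θ) (indFun N θ) = 3 := by
    rw [classInner_indFun_indFun_of_TI N X hTI hθg.isClassFunction hθX hθX hθ0, hθθ]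
  have hΘ1 : classInner (indFun N θ) (fun _ => 1) = -1 := by
    rw [classInner_indFun_left _ _ (isClassFunction_const 1), hθ1]
  have h1Θ : classInner (fun _ => 1) (indFun N θ) = -1 := by
    rw [← classInner_conj_symm, hΘ1]; simp
  have hΘv : ∀ g : G, (∀ (a : G) (y : C), lam y ≠ 1 → a * g * a⁻¹ ≠ y) → indFun N θ g = 0 :=
    fun g hg => indFun_eq_zero _ _ _ fun a ha => hθX _ fun ⟨_, b, _, z, hz, e⟩ =>
      hg (b * a) z hz (by
        rw [← e]
        simp [mul_assoc])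
  obtain ⟨α, β, hα, hβ, -, -, h⟩ := BS.exists_irr_sub_of_degree_one
    ((isGeneralizedCharacter_indFun N hθg).add isGen_one)
    (by rw [classInner_add_left, classInner_add_right, classInner_add_right, hΘΘ, hΘ1, h1Θ,
      isIrrCharacter_one.inner_self]; norm_num)
    (by rw [Pi.add_apply, hΘv 1 hone, zero_add])
    (by rw [classInner_add_left, hΘ1, isIrrCharacter_one.inner_self]; norm_num)
  refine ⟨α, β, hα, hβ, fun g hg => ?_⟩
  have := congrFun h g
  rw [Pi.add_apply, hΘv g hg, zero_add] at this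
  exact this.symm

theorem bs {G : Type*} [Group G] [Finite G] [IsSimpleGroup G] (C N : Subgroup G) (hCN : C ≤ N)
    (hconj : ∀ g ∈ N, ∀ y ∈ C, g * y * g⁻¹ ∈ C) (hidx : (C.subgroupOf N).index = 2)
    (lam : C →* ℂˣ) {s x : G} (hsN : s ∈ N) (hs : s ∉ C) (hxC : x ∈ C) (hsx : s * x * s⁻¹ = x⁻¹)
    (hlx : lam ⟨x, hxC⟩ ^ 2 ≠ 1)
    (hTI : ∀ (g : G) (y : C), lam y ≠ 1 → g * y * g⁻¹ ∈ C → g ∈ N) {t : G} (ht : orderOf t = 2)
    (ht1 : ∀ (g : G) (y : C), lam y ≠ 1 → g * t * g⁻¹ ≠ y)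
    (ht2 : ∀ (b g : G) (y : C), lam y ≠ 1 → g * (b * t * b⁻¹ * t) * g⁻¹ ≠ y) : False := by
  have := Fintype.ofFinite G
  obtain ⟨χ₁, χ₂, h1, h2, h6⟩ := bs_pair C N hCN hconj hidx lam hsN hs hxC hsx hlx hTI
  have h5 : χ₁ 1 = χ₂ 1 + 1 := by
    rw [← h6 1 fun a y hy e =>
      hy (by rw [show y = 1 from Subtype.ext (by simpa using e.symm), map_one])]
    ring
  have hk : t ∈ charKer χ₁ := by
    rw [mem_charKer_iff h1.isCharacter]
    have e1 := h1.one_mul_sum_conj_mul t t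
    have e2 := h2.one_mul_sum_conj_mul t t
    have e3 : ∑ a : G, χ₁ (a * t * a⁻¹ * t) = ∑ a : G, χ₂ (a * t * a⁻¹ * t) + Nat.card G := by
      rw [Nat.card_eq_fintype_card, ← Finset.card_univ, Finset.cast_card, ← Finset.sum_add_distrib]
      refine Finset.sum_congr rfl fun a _ => ?_
      rw [← h6 (a * t * a⁻¹ * t) (ht2 a)]
      ring
    have e4 : χ₁ t = χ₂ t + 1 := by rw [← h6 t ht1]; ring
    have e5 := natCard_ne_zero_complex G
    have e6 : (Nat.card G : ℂ) * (χ₂ t - χ₂ 1) ^ 2 = 0 := by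
      rw [e3, h5, e4] at e1
      linear_combination χ₂ 1 * e1 - (χ₂ 1 + 1) * e2
    have e7 : χ₂ t = χ₂ 1 := sub_eq_zero.1 (pow_eq_zero_iff two_ne_zero |>.1
      ((mul_eq_zero.1 e6).resolve_left e5))
    rw [e4, h5, e7]
  rcases (charKer_normal h1.isClassFunction).eq_bot_or_eq_top with h | h
  · rw [h, mem_bot] at hk
    simp [hk] at ht
  · have h7 := one_eq_one_of_commutator_le h1 (h ▸ le_top)
    rw [h5, add_eq_right] at h7
    exact h2.one_ne_zero h7

end Cfsg.Agent.MCF
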