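import Cfsg.Agent.MCX.A1

/-! The frame `Fb` is contradictory: definitions. -/

set_option autoImplicit false

namespace Cfsg.Agent.MCF

open Subgroup Cfsg.Agent.MCX

variable {S : Type*} [Group S] [Finite S] {P : Sylow 5 S} {z : S} {D : Subgroup S} {h0 a x : S}

/-- the number of Sylow 5-subgroups containing `y` -/
noncomputable def nY (y : S) : ℕ := Nat.card {Q : Sylow 5 S // y ∈ (Q : Subgroup S)}

/-- `⟨y, z⟩` -/
abbrev EE (y z : S) : Subgroup S := zpowers y ⊔ zpowers z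

omit [Finite S] in
theorem mem_EE (y z : S) : y ∈ EE y z := mem_sup_left (mem_zpowers y)

omit [Finite S] in
theorem mem_EE' (y z : S) : z ∈ EE y z := mem_sup_right (mem_zpowers z)

theorem notZ (h : Fb P z D h0 a x) {y : S} (hyD : y ∉ D) : y ∉ zpowers z :=
  fun hy => hyD (zpowers_le.2 (h.st.zD h.hD) hy)

theorem isD_EE (h : Fb P z D h0 a x) {y : S} (hy : y ∈ (P : Subgroup S)) (hyD : y ∉ D) :
    IsD P (EE y z) := h.st.Dmk hy (notZ h hyD)

omit [Finite S] in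
theorem EE_ne {y : S} (hyD : y ∉ D) : EE y z ≠ D := fun e => hyD (e ▸ mem_EE y z)

theorem EE_uq (h : Fb P z D h0 a x) {y : S} (hy : y ∈ (P : Subgroup S)) (hyD : y ∉ D)
    (Q : Sylow 5 S) (hQ : EE y z ≤ (Q : Subgroup S)) : Q = P :=
  h.uq _ (isD_EE h hy hyD) (EE_ne hyD) Q hQ

theorem EE_le_Cz (h : Fb P z D h0 a x) {y : S} (hy : y ∈ (P : Subgroup S)) (hyD : y ∉ D) :
    EE y z ≤ Cz y := fun _ hu => mem_Cz.2 (h.st.Dcomm (isD_EE h hy hyD) hu (mem_EE y z))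

theorem ord5 (h : Fb P z D h0 a x) {y : S} (hy : y ∈ (P : Subgroup S)) (hyD : y ∉ D) :
    orderOf y = 5 := h.st.ord5 hy fun e => hyD (e ▸ D.one_mem)

theorem nY_one (Q : Sylow 5 S) {y : S} (hy : y ∈ (P : Subgroup S)) (h1 : nY y = 1)
    (hQ : y ∈ (Q : Subgroup S)) : Q = P := by
  have := (Nat.card_eq_one_iff_unique.1 h1).1
  exact congrArg Subtype.val (this.elim (⟨Q, hQ⟩ : {Q : Sylow 5 S // y ∈ (Q : Subgroup S)}) ⟨P, hy⟩)

end Cfsg.Agent.MCF
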