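import Cfsg.Agent.MCF.Def

/-! Transport of the frame. -/

set_option autoImplicit false

namespace Cfsg.Agent.MCF

open Subgroup Cfsg.Agent.MCX

variable {S : Type*} [Group S] [Finite S] {P : Sylow 5 S} {z : S} {D : Subgroup S} {h0 a x : S}

omit [Finite S] in
theorem f0_card (g : S) (A : Subgroup S) : Nat.card (cj g A) = Nat.card A :=
  Subgroup.card_map_of_injective (MulAut.conj g).injective

omit [Finite S] in
theorem f0_back (g : S) (A : Subgroup S) : cj g (cj g⁻¹ A) = A := by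
  ext y
  rw [mem_cj, mem_cj]
  simp [mul_assoc]

omit [Finite S] in
theorem f0_back' (g : S) (A : Subgroup S) : cj g⁻¹ (cj g A) = A := by
  simpa using f0_back g⁻¹ A

omit [Finite S] in
theorem f0_mem {g y : S} {A : Subgroup S} : g * y * g⁻¹ ∈ cj g A ↔ y ∈ A := by
  rw [mem_cj]
  simp [mul_assoc]

omit [Finite S] in
theorem f0_mono (g : S) {A B : Subgroup S} (h : A ≤ B) : cj g A ≤ cj g B := map_mono h

omit [Finite S] in
theorem f0_Cz (g y : S) : Cz (g * y * g⁻¹) = cj g (Cz y) := by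
  ext u
  rw [mem_cj, mem_Cz, mem_Cz]
  constructor
  · intro e
    calc g⁻¹ * u * g * y = g⁻¹ * (u * (g * y * g⁻¹)) * g := by group
      _ = _ := by rw [e]; group
  · intro e
    calc u * (g * y * g⁻¹) = g * (g⁻¹ * u * g * y) * g⁻¹ := by group
      _ = _ := by rw [e]; group

omit [Finite S] in
theorem f0_Ce (g : S) (A : Subgroup S) : Ce (cj g A) = cj g (Ce A) := by
  ext u
  rw [mem_cj, mem_Ce, mem_Ce]
  constructor
  · intro e y hy
    have := e _ (f0_mem.2 hy : g * y * g⁻¹ ∈ cj g A)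
    calc y * (g⁻¹ * u * g) = g⁻¹ * (g * y * g⁻¹ * u) * g := by group
      _ = _ := by rw [this]; group
  · intro e y hy
    have := e _ (mem_cj.1 hy)
    calc y * u = g * (g⁻¹ * y * g * (g⁻¹ * u * g)) * g⁻¹ := by group
      _ = _ := by rw [this]; group

omit [Finite S] in
theorem f0_Nm (g : S) (A : Subgroup S) : Nm (cj g A) = cj g (Nm A) := by
  ext u
  rw [mem_cj, mem_normalizer_iff, mem_normalizer_iff]
  constructor
  · intro e y
    have := e (g * y * g⁻¹)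
    rw [f0_mem, mem_cj] at this
    rw [this, show g⁻¹ * (u * (g * y * g⁻¹) * u⁻¹) * g = g⁻¹ * u * g * y * (g⁻¹ * u * g)⁻¹ by group]
  · intro e y
    rw [mem_cj, mem_cj, e, show g⁻¹ * (u * y * u⁻¹) * g =
      g⁻¹ * u * g * (g⁻¹ * y * g) * (g⁻¹ * u * g)⁻¹ by group]

omit [Finite S] in
theorem f0_syl (g : S) (R : Sylow 5 S) : ((g • R : Sylow 5 S) : Subgroup S) = cj g (R : Subgroup S) := rfl

/-- Conjugate everything by `g`, where `Q = g • P` (`St.other` gives the `St` part; the map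
`MulAut.conj g` preserves orders, centralizers, normalizers and permutes the Sylow subgroups). -/
theorem other (h : Fb P z D h0 a x) (Q : Sylow 5 S) :
    ∃ g : S, (Q : Subgroup S) = cj g (P : Subgroup S) ∧
      Fb Q (g * z * g⁻¹) (cj g D) (g * h0 * g⁻¹) (g * a * g⁻¹) (g * x * g⁻¹) := by
  obtain ⟨g, e, hs⟩ := h.st.other Q
  have back : ∀ E, IsD Q E → IsD P (cj g⁻¹ E) := fun E hE =>
    ⟨by rw [← f0_back' g (P : Subgroup S), ← e]; exact f0_mono _ hE.1, by rw [f0_card, hE.2]⟩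
  have oo : orderOf (g * h0 * g⁻¹) = orderOf h0 := (MulAut.conj g).orderOf_eq h0
  refine ⟨g, e, ⟨hs, ⟨e ▸ f0_mono g h.hD.1, by rw [f0_card, h.hD.2]⟩, ?_, ?_, oo ▸ h.h5, f0_mem.2 h.aD,
    ?_, e ▸ f0_mem.2 h.xP, fun c => h.xD (f0_mem.1 c), ?_, ?_, ?_⟩, ?_, fun E hE => ?_, oo ▸ h.oh,
    fun u hu => ?_, ?_, fun E hE hne R hR => ?_⟩
  · obtain ⟨R, h1, h2⟩ := h.ta
    refine ⟨g • R, f0_mono g h1, fun c => h2 fun u hu => ?_⟩
    have := c (f0_mem.2 hu : g * u * g⁻¹ ∈ cj g (R : Subgroup S))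
    rwa [f0_Cz, f0_mem] at this
  · rw [e, f0_Nm]; exact f0_mem.2 h.hN
  · rintro ⟨k, hk⟩
    refine h.aZ ⟨k, ?_⟩
    have hk' : (g * z * g⁻¹) ^ k = g * a * g⁻¹ := hk
    rw [conj_zpow] at hk'
    simpa using hk'
  · rw [conj_pow, ← h.hz]; group
  · rw [conj_pow, ← h.ha]; group
  · rw [show (g * x * g⁻¹)⁻¹ = g * x⁻¹ * g⁻¹ from conj_inv, ← h.hx]; group
  · rw [f0_Cz, h.cz, e]
  · rw [← f0_back g E, f0_Ce, h.cD _ (back E hE)]
  · rw [e, f0_Nm, mem_cj] at hu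
    obtain ⟨y, hy, k, hk⟩ := h.nP _ hu
    refine ⟨g * y * g⁻¹, e ▸ f0_mem.2 hy, k, ?_⟩
    rw [conj_pow, conj_mul, ← hk]; group
  · rw [e, f0_Nm, f0_card, h.cN]
  · have := h.uq _ (back E hE) (fun c => hne (by rw [← c, f0_back])) (g⁻¹ • R) (f0_mono g⁻¹ hR)
    apply Sylow.ext
    rw [e, ← this, f0_syl, f0_back]

end Cfsg.Agent.MCF
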