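import Cfsg.Agent.MCF.F0
import Cfsg.Agent.MCX.A9

/-! Sylow subgroups meeting `D`. -/

set_option autoImplicit false

namespace Cfsg.Agent.MCF

open Subgroup Cfsg.Agent.MCX

variable {S : Type*} [Group S] [Finite S] {P : Sylow 5 S} {z : S} {D : Subgroup S} {h0 a x : S}

/-- `|S| = 898128000`, `|N(P)| = 500` (`Sylow.card_eq_index_normalizer`). -/
theorem n5 (h : Fb P z D h0 a x) : Nat.card (Sylow 5 S) = 1796256 := by
  have := (Nm (P : Subgroup S)).index_mul_card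
  have e : Nat.card (Sylow 5 S) = (Nm (P : Subgroup S)).index := P.card_eq_index_normalizer
  rw [← e, h.cN, h.st.card] at this
  omega

theorem f1_one {E : Subgroup S} {Q : Sylow 5 S} (hQ : E ≤ (Q : Subgroup S))
    (h : ∀ R : Sylow 5 S, E ≤ (R : Subgroup S) → R = Q) : nS E = 1 :=
  Nat.card_eq_one_iff_unique.2 ⟨⟨fun a b => Subtype.ext ((h _ a.2).trans (h _ b.2).symm)⟩, ⟨⟨Q, hQ⟩⟩⟩

theorem f1_cen (h : Fb P z D h0 a x) (Q : Sylow 5 S) (hQ : D ≤ (Q : Subgroup S)) :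
    ∃ w ∈ D, St Q w ∧ Cz w = (Q : Subgroup S) := by
  obtain ⟨g, -, f⟩ := other h Q
  exact ⟨_, h.cD D h.hD ▸ mem_Ce.2 fun y hy => f.st.zc y (hQ hy), f.st, f.cz⟩

/-- `cnt1` (the other `E` have `nS E = 1` by `uq`) gives `nS D ≡ 6 (mod 25)`. For `Q ≥ D` let `z_Q`
be a central generator (`other`): `z_Q ∈ C(D) = D` (`cD`), `z_Q ≠ 1`, `C(z_Q) = Q` (`cz` of the
transported frame), so `Q ↦ z_Q` is injective into `D - 1` and `nS D ≤ 24`. -/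
theorem nS6 (h : Fb P z D h0 a x) : nS D = 6 := by
  have h1 := h.st.cnt1 h.hD fun E hE hne => f1_one hE.1 (h.uq E hE hne)
  rw [n5 h] at h1
  choose w hw using f1_cen h
  have h2 : nS D ≤ Nat.card D := Nat.card_le_card_of_injective
    (fun Q : {Q : Sylow 5 S // D ≤ (Q : Subgroup S)} => (⟨w Q.1 Q.2, (hw _ _).1⟩ : D)) fun Q R e =>
      Subtype.ext (Sylow.ext (by
        rw [← (hw Q.1 Q.2).2.2, ← (hw R.1 R.2).2.2, show w Q.1 Q.2 = w R.1 R.2 from congrArg Subtype.val e]))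
  rw [h.hD.2] at h2
  unfold Nat.ModEq at h1
  omega

/-- Every `y ∈ D - 1` has `C(y) = Q_y` for a Sylow `Q_y ≥ D`: for `y ∈ ⟨z⟩` take `P` (`z` is a power
of `y`). Otherwise: `ta` gives `Q₀ ≥ D`, `Q₀ ≠ P`, with central `d₀ ∈ C(D) = D`, `C(d₀) = Q₀`,
`d₀ ∉ ⟨z⟩`; `y = d₀^i z^j` (`Deq`, `mem_D`), `5 ∤ i`; `x d₀ x⁻¹ = d₀ z^c` with `5 ∤ c`
(`comm_mem`, `Dcen`), so `y = x^k d₀^i x^{-k}` for a suitable `k`; take `x^k • Q₀` (`Dnorm`). -/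
theorem cenD (h : Fb P z D h0 a x) {y : S} (hy : y ∈ D) (h1 : y ≠ 1) :
    ∃ Q : Sylow 5 S, D ≤ (Q : Subgroup S) ∧ Cz y = (Q : Subgroup S) := by
  by_cases hz : y ∈ zpowers z
  · exact ⟨P, h.hD.1, (a4_Cz (h.st.chg (h.hD.1 hy) h1 fun g hg => h.st.a1a_zc hz hg).2).trans h.cz⟩
  obtain ⟨Q, hQ, n⟩ := h.ta
  obtain ⟨d, hd, st, e⟩ := f1_cen h Q hQ
  have dz : d ∉ zpowers z := fun c =>
    n (e.ge.trans (a4_Cz (h.st.chg (h.hD.1 hd) st.z1 fun g hg => h.st.a1a_zc c hg).2).le)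
  obtain ⟨i, j, rfl⟩ := h.st.mem_D (h.hD.1 hd) ((h.st.Deq h.hD hd dz).le hy)
  have d2 : d ^ i ∉ zpowers z := fun c => hz (mul_mem c (pow_mem (mem_zpowers z) j))
  have e2 : Cz (d ^ i) = (Q : Subgroup S) := (a4_Cz (st.chg (pow_mem st.zP i) (fun c => d2 (c ▸ one_mem _))
    fun g hg => st.a1a_zc (pow_mem (mem_zpowers d) i) hg).2).trans e
  have hd2 := pow_mem hd i
  generalize d ^ i = u at d2 e2 hd2
  have m := h.st.comm_mem h.xP (h.hD.1 hd2)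
  have m1 : x * u * x⁻¹ * u⁻¹ ≠ 1 := fun c =>
    h.xD (h.st.Dcen h.hD hd2 d2 h.xP (mul_inv_eq_iff_eq_mul.1 (mul_inv_eq_one.1 c)))
  have m2 := (h.st.chg (h.st.a1a_zle m) m1 fun g hg => h.st.a1a_zc m hg).2
  obtain ⟨k, hk⟩ := mem_powers_iff_mem_zpowers.2 (m2.ge (pow_mem (mem_zpowers z) j))
  have e3 := a4a_conj (h.st.a1a_zc m h.xP) (d := u) (by rw [h.st.a1a_zc m (h.hD.1 hd2)]; group) k
  refine ⟨x ^ k • Q, a4_le hQ (h.st.Dnorm h.hD (pow_mem h.xP k)), ?_⟩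
  ext v
  rw [← show _ = z ^ j from hk, ← e3, a4_Cz_conj, a4_mem, e2]

/-- Let `Q' = C(y)` from `cenD`, `Q ∋ y`, `Q ≠ Q'`, `z_Q` central generator of `Q` (`other`), so
`z_Q ∈ Q'`. If `y ∈ ⟨z_Q⟩` then `Q ≤ C(y) = Q'`, so `Q = Q'`. Otherwise `E = ⟨y, z_Q⟩` has order 25
(`Dmk` for `Q`) and lies in `Q` and `Q'`; `D` lies in `Q'` and in another Sylow subgroup (`nS6`);
by `uq` of the frame transported to `Q'`, both equal the special subgroup of `Q'`, so `D = E ≤ Q`. -/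
theorem inD (h : Fb P z D h0 a x) {y : S} (hy : y ∈ D) (h1 : y ≠ 1) (Q : Sylow 5 S)
    (hQ : y ∈ (Q : Subgroup S)) : D ≤ (Q : Subgroup S) := by
  obtain ⟨R, hR, e⟩ := cenD h hy h1
  by_cases c : Q = R
  · exact c ▸ hR
  obtain ⟨g, -, f⟩ := other h Q
  obtain ⟨g', -, f'⟩ := other h R
  by_cases hz : y ∈ zpowers (g * z * g⁻¹)
  · exact absurd (Sylow.ext (Q.is_maximal' R.isPGroup' fun v hv =>
      e.le (mem_Cz.2 (f.st.a1a_zc hz hv))).symm) c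
  have hE := f.st.Dmk hQ hz
  have l : zpowers y ⊔ zpowers (g * z * g⁻¹) ≤ (R : Subgroup S) :=
    sup_le (zpowers_le.2 (hR hy)) (zpowers_le.2 (e.le (mem_Cz.2 (f.st.zc y hQ).symm)))
  have e1 : zpowers y ⊔ zpowers (g * z * g⁻¹) = cj g' D := by
    by_contra n
    exact c (f'.uq _ ⟨l, hE.2⟩ n Q hE.1)
  have e2 : D = cj g' D := by
    by_contra n
    have := f1_one hR (f'.uq _ ⟨hR, h.hD.2⟩ n)
    rw [nS6 h] at this
    omega
  exact (e2.trans e1.symm).le.trans hE.1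

end Cfsg.Agent.MCF
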