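import Cfsg.Agent.MCF.Def

/-! Centralizers of elements of `P - D`. -/

set_option autoImplicit false

namespace Cfsg.Agent.MCF

open Subgroup Cfsg.Agent.MCX

variable {S : Type*} [Group S] [Finite S] {P : Sylow 5 S} {z : S} {D : Subgroup S} {h0 a x : S}

omit [Finite S] in
theorem f2_mem {g u : S} {Q : Sylow 5 S} :
    u ∈ ((g • Q : Sylow 5 S) : Subgroup S) ↔ g⁻¹ * u * g ∈ (Q : Subgroup S) := by
  rw [Sylow.coe_subgroup_smul, Subgroup.mem_pointwise_smul_iff_inv_smul_mem]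
  simp

theorem f2_pg {A M : Subgroup S} (hA : A ≤ M) (hc : Nat.card A = 25) :
    Nat.card (A.subgroupOf M) = 25 ∧ ∃ R : Sylow 5 M, A.subgroupOf M ≤ R := by
  have e : Nat.card (A.subgroupOf M) = 25 := by
    rw [← hc]; exact Nat.card_congr (subgroupOfEquivOfLe hA).toEquiv
  exact ⟨e, (IsPGroup.of_card (n := 2) e).exists_le_sylow⟩

theorem f2_syl {A M : Subgroup S} (hA : A ≤ M) (hc : Nat.card A = 25) (hM : ¬ 125 ∣ Nat.card M) :
    ∃ R : Sylow 5 M, (R : Subgroup M) = A.subgroupOf M := by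
  obtain ⟨e, R, hR⟩ := f2_pg hA hc
  refine ⟨R, (eq_of_le_of_card_ge hR ?_).symm⟩
  obtain ⟨k, hk⟩ := IsPGroup.iff_card.1 R.isPGroup'
  have hd := (R : Subgroup M).card_subgroup_dvd_card
  rw [hk] at hd ⊢
  rw [e]
  by_contra hlt
  have h3 : 3 ≤ k := by
    by_contra h3
    have : 5 ^ k ≤ 5 ^ 2 := Nat.pow_le_pow_right (by norm_num) (by omega)
    omega
  exact hM ((pow_dvd_pow 5 h3).trans hd)

/-- A subgroup `M ≥ E = ⟨y, z⟩` not containing `P` has Sylow 5-subgroup `E`: a Sylow subgroup of `M`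
above `E` of order 125 is a Sylow subgroup of `S`, so is `P` by `EE_uq`. -/
theorem not125 (h : Fb P z D h0 a x) {y : S} (hy : y ∈ (P : Subgroup S)) (hyD : y ∉ D)
    {M : Subgroup S} (hM : EE y z ≤ M) (hP : ¬ (P : Subgroup S) ≤ M) : ¬ 125 ∣ Nat.card M := by
  intro hd
  obtain ⟨-, R, hR⟩ := f2_pg hM (isD_EE h hy hyD).2
  have h1 : 5 ^ 3 ∣ Nat.card (R : Subgroup M) := R.pow_dvd_card_of_pow_dvd_card hd
  obtain ⟨Q, hQ⟩ := (R.isPGroup'.map M.subtype).exists_le_sylow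
  have hE : EE y z ≤ (R : Subgroup M).map M.subtype := fun u hu => ⟨⟨u, hM hu⟩, hR hu, rfl⟩
  have e := EE_uq h hy hyD Q (hE.trans hQ)
  subst e
  have e2 : (R : Subgroup M).map M.subtype = (Q : Subgroup S) := by
    refine eq_of_le_of_card_ge hQ ?_
    rw [h.st.cardQ, card_map_of_injective M.subtype_injective]
    exact Nat.le_of_dvd Nat.card_pos h1
  exact hP (e2 ▸ map_subtype_le _)

/-- `St.cen`, `notZ` -/
theorem P_not_le (h : Fb P z D h0 a x) {y : S} (hy : y ∈ (P : Subgroup S)) (hyD : y ∉ D) :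
    ¬ (P : Subgroup S) ≤ Cz y := by
  intro hle
  exact notZ h hyD (h.st.cen hy fun u hu => mem_Cz.1 (hle hu))

/-- `g⁻¹ • P ≥ E`, `EE_uq` -/
theorem Nm_EE_le (h : Fb P z D h0 a x) {y : S} (hy : y ∈ (P : Subgroup S)) (hyD : y ∉ D) :
    Nm (EE y z) ≤ Nm (P : Subgroup S) := by
  intro g hg
  have hE : EE y z ≤ ((g • P : Sylow 5 S) : Subgroup S) := fun u hu =>
    f2_mem.2 ((isD_EE h hy hyD).1 (by
      have := (mem_normalizer_iff.1 ((Nm (EE y z)).inv_mem hg) u).1 hu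
      simpa using this))
  exact Sylow.smul_eq_iff_mem_normalizer.1 (EE_uq h hy hyD _ hE)

/-- `C(y)` is transitive on the Sylow subgroups `Q ∋ y`: with `z_Q` from `St.other`, `y ∉ ⟨z_Q⟩`
(else `Q ≤ C(y)`, against `not125`), `E_Q = ⟨y, z_Q⟩ ≤ C(y)` has order 25 (`Dmk` for `Q`), so `E_Q` and
`E` are Sylow subgroups of `C(y)`, `E = c E_Q c⁻¹ ≤ c • Q` and `c • Q = P` by `EE_uq`. -/
theorem trans (h : Fb P z D h0 a x) {y : S} (hy : y ∈ (P : Subgroup S)) (hyD : y ∉ D)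
    (Q : Sylow 5 S) (hQ : y ∈ (Q : Subgroup S)) : ∃ c ∈ Cz y, Q = c • P := by
  have hn := not125 h hy hyD (EE_le_Cz h hy hyD) (P_not_le h hy hyD)
  obtain ⟨g, -, hw⟩ := h.st.other Q
  have hyw : y ∉ zpowers (g * z * g⁻¹) := by
    intro hyw
    have hle : (Q : Subgroup S) ≤ Cz y := fun u hu => mem_Cz.2 (hw.a1a_zc hyw hu)
    exact hn (h.st.cardQ Q ▸ card_dvd_of_le hle)
  have hD := hw.Dmk hQ hyw
  have hle : EE y (g * z * g⁻¹) ≤ Cz y := fun _ hu => mem_Cz.2 (hw.Dcomm hD hu (mem_EE y _))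
  obtain ⟨R1, h1⟩ := f2_syl (EE_le_Cz h hy hyD) (isD_EE h hy hyD).2 hn
  obtain ⟨R2, h2⟩ := f2_syl hle hD.2 hn
  obtain ⟨c, hc⟩ := MulAction.exists_smul_eq (Cz y) R1 R2
  refine ⟨c, c.2, ?_⟩
  have hE : EE y z ≤ (((c : S)⁻¹ • Q : Sylow 5 S) : Subgroup S) := by
    intro u hu
    rw [f2_mem, inv_inv]
    have hu1 : (⟨u, EE_le_Cz h hy hyD hu⟩ : Cz y) ∈ (R1 : Subgroup (Cz y)) := by
      rw [h1]; exact hu
    have hu2 : c * ⟨u, EE_le_Cz h hy hyD hu⟩ * c⁻¹ ∈ (R2 : Subgroup (Cz y)) := by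
      rw [← hc, Sylow.coe_subgroup_smul, Subgroup.mem_pointwise_smul_iff_inv_smul_mem]
      simpa [mul_assoc] using hu1
    rw [h2] at hu2
    exact hD.1 hu2
  rw [← EE_uq h hy hyD _ hE, smul_inv_smul]

/-- orbit-stabilizer for `C(y)` acting on `Sylow 5 S`: the orbit of `P` is `{Q ∣ y ∈ Q}` -/
theorem cardC (h : Fb P z D h0 a x) {y : S} (hy : y ∈ (P : Subgroup S)) (hyD : y ∉ D) :
    Nat.card (Cz y) = nY y * Nat.card (Cz y ⊓ Nm (P : Subgroup S) : Subgroup S) := by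
  have e1 : MulAction.orbit (Cz y) P = {Q : Sylow 5 S | y ∈ (Q : Subgroup S)} := by
    ext Q
    constructor
    · rintro ⟨c, rfl⟩
      show y ∈ (((c : S) • P : Sylow 5 S) : Subgroup S)
      rw [f2_mem, mul_assoc, ← mem_Cz.1 c.2, inv_mul_cancel_left]
      exact hy
    · intro hQ
      obtain ⟨c, hc, e⟩ := trans h hy hyD Q hQ
      exact ⟨⟨c, hc⟩, e.symm⟩
  have e2 : MulAction.stabilizer (Cz y) P = (Nm (P : Subgroup S)).subgroupOf (Cz y) := by
    ext c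
    rw [MulAction.mem_stabilizer_iff, mem_subgroupOf]
    exact Sylow.smul_eq_iff_mem_normalizer
  have e3 : Nat.card ((Nm (P : Subgroup S)).subgroupOf (Cz y)) =
      Nat.card (Cz y ⊓ Nm (P : Subgroup S) : Subgroup S) := by
    rw [← inf_subgroupOf_left]
    exact Nat.card_congr (subgroupOfEquivOfLe inf_le_left).toEquiv
  rw [← (MulAction.stabilizer (Cz y) P).index_mul_card, MulAction.index_stabilizer, e1, e2, e3]
  rfl

end Cfsg.Agent.MCF
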