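import Cfsg.Agent.MCF.F3a
import Cfsg.Agent.MCX.A5
import Cfsg.Agent.Solv.CoprimeSylow

/-! `z` acts without fixed points on `5'`-subgroups. -/

set_option autoImplicit false

namespace Cfsg.Agent.MCF

open Subgroup Cfsg.Agent.MCX

variable {S : Type*} [Group S] [Finite S] {P : Sylow 5 S} {z : S} {D : Subgroup S} {h0 a x : S}

/-- a 5-group `E` normalizing the `5'`-group `A` normalizes a Sylow `l`-subgroup of `A` (the number
of these is prime to 5; `IsPGroup.card_modEq_card_fixedPoints`/`nonempty_fixed_point_of_prime_not_dvd_card`;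
or a library lemma on invariant Sylow subgroups) -/
theorem inv_syl {E A : Subgroup S} (hE : IsPGroup 5 E) (hEA : E ≤ Nm A) (h5 : ¬ 5 ∣ Nat.card A)
    (l : ℕ) [Fact l.Prime] :
    ∃ R : Subgroup S, R ≤ A ∧ E ≤ Nm R ∧ Nat.card R = l ^ (Nat.card A).factorization l := by
  have := hE.isNilpotent
  obtain ⟨k, hk⟩ := IsPGroup.iff_card.1 hE
  obtain ⟨R, hR⟩ := Solv.exists_invariant_sylow E A hEA
    (hk ▸ ((Nat.Prime.coprime_iff_not_dvd Fact.out).2 h5).pow_left k) (Or.inl inferInstance) l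
  exact ⟨_, map_subtype_le _, hR, by rw [card_subtype, R.card_eq_multiplicity]⟩

/-- `⟨z⟩` acts on `R` by conjugation with fixed points `R ⊓ C(z) = R ⊓ P = 1` (`a5_fix` in MCX/A5) -/
theorem fpf (h : Fb P z D h0 a x) {R : Subgroup S} (hz : z ∈ Nm R) (h5 : ¬ 5 ∣ Nat.card R) :
    Nat.card R ≡ 1 [MOD 5] := by
  have h1 := a5_fix R hz (h.st.pow5 h.st.zP)
  have h2 : R ⊓ Cz z = ⊥ := by
    rw [h.cz, eq_bot_iff]
    intro u hu
    by_contra hu1
    exact h5 (h.st.ord5 hu.2 hu1 ▸ R.orderOf_dvd_natCard hu.1)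
  rwa [h2, card_bot] at h1

/-- Burnside's transfer theorem in `M`: `E = ⟨y, z⟩` is a Sylow subgroup (`not125`), abelian,
`N_M(E) ≤ M ⊓ P = E` (`Nm_c`, `a1_card`/`a1a_top`), so `M` has a normal complement `U`. -/
theorem burn (h : Fb P z D h0 a x) {y : S} (hy : y ∈ (P : Subgroup S)) (hyD : y ∉ D)
    (hyB : y ∉ EE x z) {M : Subgroup S} (hM : EE y z ≤ M) (hP : ¬ (P : Subgroup S) ≤ M) :
    ∃ U : Subgroup S, U ≤ M ∧ M ≤ Nm U ∧ ¬ 5 ∣ Nat.card U ∧ Nat.card M = 25 * Nat.card U := by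
  have hD := isD_EE h hy hyD
  have c25 : Nat.card ((EE y z).subgroupOf M) = 5 ^ 2 := by
    rw [Nat.card_congr (subgroupOfEquivOfLe hM).toEquiv, hD.2]; norm_num
  have hp : IsPGroup 5 ((EE y z).subgroupOf M) := IsPGroup.of_card c25
  have hi : ¬ 5 ∣ ((EE y z).subgroupOf M).index := fun k => not125 h hy hyD hM hP (by
    rw [← ((EE y z).subgroupOf M).card_mul_index, c25]
    exact Nat.mul_dvd_mul (a := 5 ^ 2) (c := 5) dvd_rfl k)
  set Q : Sylow 5 M := hp.toSylow hi with hQdef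
  have hQ : (Q : Subgroup M) = (EE y z).subgroupOf M := rfl
  have hMP : M ⊓ (P : Subgroup S) = EE y z := by
    have hle : EE y z ≤ M ⊓ (P : Subgroup S) := le_inf hM hD.1
    have h25 := card_le_of_le hle
    rw [hD.2] at h25
    rcases h25.eq_or_lt with e | e
    · exact (eq_of_le_of_card_ge hle (by rw [hD.2, ← e])).symm
    · exact absurd ((h.st.a1a_top inf_le_right e).ge.trans inf_le_left) hP
  have hN : normalizer ((Q : Subgroup M) : Set M) ≤ centralizer ((Q : Subgroup M) : Set M) := by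
    intro g hg
    have h1 : (g : S) ∈ Nm (EE y z) := by
      refine mem_normalizer_fintype fun u hu => ?_
      exact (mem_normalizer_iff.1 hg ⟨u, hM hu⟩).1 hu
    have h2 : (g : S) ∈ EE y z := hMP ▸ ⟨g.2, Nm_c h hy hyD hyB h1⟩
    exact mem_centralizer_iff.2 fun u hu => Subtype.ext (h.st.Dcomm hD hu h2)
  have hK := (MonoidHom.ker_transferSylow_isComplement' Q hN).card_mul_card
  have h5 := MonoidHom.not_dvd_card_ker_transferSylow Q hN
  generalize hKd : (MonoidHom.transferSylow Q hN).ker = K at hK h5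
  have : K.Normal := hKd ▸ inferInstance
  refine ⟨K.map M.subtype, map_subtype_le _, ?_, by rwa [card_subtype], ?_⟩
  · intro g hg
    refine mem_normalizer_fintype ?_
    rintro _ ⟨u, hu, rfl⟩
    exact ⟨_, this.conj_mem u hu ⟨g, hg⟩, rfl⟩
  · rw [card_subtype, ← hK, hQ, c25, mul_comm]; norm_num

end Cfsg.Agent.MCF
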