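import Cfsg.Agent.MCF.F2

/-! Computations in `N(P) = P⟨h⟩`. -/

set_option autoImplicit false

namespace Cfsg.Agent.MCF

open Subgroup Cfsg.Agent.MCX

variable {S : Type*} [Group S] [Finite S] {P : Sylow 5 S} {z : S} {D : Subgroup S} {h0 a x : S}

omit [Finite S] in
theorem f3a_conj_pow {t u v : S} (e : t * u * t⁻¹ = v) (n : ℕ) : t * u ^ n * t⁻¹ = v ^ n := by
  rw [← e, conj_pow]

theorem f3a_z (h : Fb P z D h0 a x) : h0 ^ 2 * z * (h0 ^ 2)⁻¹ = z⁻¹ := by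
  have e : h0 ^ 2 * z * (h0 ^ 2)⁻¹ = h0 * (h0 * z * h0⁻¹) * h0⁻¹ := by rw [pow_two]; group
  rw [e, h.hz, f3a_conj_pow h.hz, ← pow_mul]
  refine eq_inv_of_mul_eq_one_left ?_
  rw [← pow_succ]
  exact h.st.pow5 h.st.zP

theorem f3a_a (h : Fb P z D h0 a x) : h0 ^ 2 * a * (h0 ^ 2)⁻¹ = a⁻¹ := by
  have e : h0 ^ 2 * a * (h0 ^ 2)⁻¹ = h0 * (h0 * a * h0⁻¹) * h0⁻¹ := by rw [pow_two]; group
  rw [e, h.ha, f3a_conj_pow h.ha, ← pow_mul]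
  refine eq_inv_of_mul_eq_one_left ?_
  rw [← pow_succ, show 3 * 3 + 1 = 5 * 2 by norm_num, pow_mul, h.st.pow5 (h.hD.1 h.aD), one_pow]

omit [Finite S] in
theorem f3a_x' (h : Fb P z D h0 a x) : h0 * x⁻¹ * h0⁻¹ = x := by
  have e : h0 * x⁻¹ * h0⁻¹ = (h0 * x * h0⁻¹)⁻¹ := by group
  rw [e, h.hx, inv_inv]

omit [Finite S] in
theorem f3a_x (h : Fb P z D h0 a x) : h0 ^ 2 * x * (h0 ^ 2)⁻¹ = x := by
  have e : h0 ^ 2 * x * (h0 ^ 2)⁻¹ = h0 * (h0 * x * h0⁻¹) * h0⁻¹ := by rw [pow_two]; group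
  rw [e, h.hx, f3a_x' h]

theorem f3a_D (h : Fb P z D h0 a x) {d : S} (hd : d ∈ D) : h0 ^ 2 * d * (h0 ^ 2)⁻¹ = d⁻¹ := by
  obtain ⟨i, j, rfl⟩ := h.st.mem_D (h.hD.1 h.aD) (h.st.Deq h.hD h.aD h.aZ ▸ hd)
  have e : h0 ^ 2 * (a ^ i * z ^ j) * (h0 ^ 2)⁻¹ =
      (h0 ^ 2 * a ^ i * (h0 ^ 2)⁻¹) * (h0 ^ 2 * z ^ j * (h0 ^ 2)⁻¹) := by group
  rw [e, f3a_conj_pow (f3a_a h), f3a_conj_pow (f3a_z h), inv_pow, inv_pow, ← mul_inv_rev,
    h.st.Dcomm h.hD (pow_mem h.aD i) (pow_mem (h.st.zD h.hD) j)]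

omit [Finite S] in
theorem f3a_mod (h : Fb P z D h0 a x) (k : ℕ) :
    h0 ^ k = 1 ∨ h0 ^ k = h0 ∨ h0 ^ k = h0 ^ 2 ∨ h0 ^ k = h0 ^ 3 := by
  rw [← pow_mod_orderOf, h.oh]
  have : k % 4 = 0 ∨ k % 4 = 1 ∨ k % 4 = 2 ∨ k % 4 = 3 := by omega
  rcases this with e | e | e | e <;> simp [e]

omit [Finite S] in
theorem f3a_four (h : Fb P z D h0 a x) : h0 ^ 4 = 1 := by rw [← h.oh, pow_orderOf_eq_one]

theorem f3a_sq (h : Fb P z D h0 a x) {d : S} (hd : d ∈ (P : Subgroup S)) {A : Subgroup S}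
    (h2 : d * d ∈ A) : d ∈ A := by
  have e : d = (d * d) ^ 3 := by
    rw [← pow_two, ← pow_mul, show 2 * 3 = 5 + 1 by norm_num, pow_succ, h.st.pow5 hd, one_mul]
  rw [e]; exact pow_mem h2 3

omit [Finite S] in
theorem f3a_nY_conj (g y : S) : nY (g * y * g⁻¹) = nY y := by
  refine (Nat.card_congr ((MulAction.toPerm g).subtypeEquiv fun Q => ?_)).symm
  rw [MulAction.toPerm_apply, Sylow.coe_subgroup_smul]
  exact (Subgroup.smul_mem_pointwise_smul_iff (a := MulAut.conj g)).symm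

/-- `P = ⟨x⟩ ⟨a⟩ ⟨z⟩` (`Dmax`, `Deq`, `mem_D`). Write `y = x^i a^j z^k`; `5 ∤ i` as `y ∉ D`, `5 ∤ j` as
`y ∉ ⟨x, z⟩`. `g ∈ N(E) ≤ N(P)` (`Nm_EE_le`), `g = p h^k`; `P ≤ N(E)` (`Dnorm`), so `h^k ∈ N(E)`. If
`4 ∤ k` then `h² ∈ N(E)` (`h⁴ = 1`; `h² = (h^k)²` for odd `k`), `h² y h⁻² = x^i a^{-j} z^{-k} ∈ E`, so
`y⁻¹ h² y h⁻² = a^{-2j} z^{-2k} ∈ E ⊓ D = ⟨z⟩` (`Dinf`), so `a ∈ ⟨z⟩`. -/
theorem Nm_c (h : Fb P z D h0 a x) {y : S} (hy : y ∈ (P : Subgroup S)) (hyD : y ∉ D)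
    (hyB : y ∉ EE x z) : Nm (EE y z) ≤ (P : Subgroup S) := by
  intro g hg
  obtain ⟨p, hp, k, rfl⟩ := h.nP g (Nm_EE_le h hy hyD hg)
  have hE := isD_EE h hy hyD
  have hk : h0 ^ k ∈ Nm (EE y z) := (mul_mem_cancel_left (h.st.Dnorm hE hp)).1 hg
  have key : h0 ^ 2 ∉ Nm (EE y z) := fun ht => by
    obtain ⟨i, d, hd, e⟩ := h.st.Dmax h.hD h.xP h.xD hy
    have h1 : h0 ^ 2 * y * (h0 ^ 2)⁻¹ ∈ EE y z := (mem_normalizer_iff.1 ht y).1 (mem_EE y z)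
    have h2 : h0 ^ 2 * y * (h0 ^ 2)⁻¹ = x ^ i * d⁻¹ := by
      rw [← f3a_D h hd, ← f3a_conj_pow (f3a_x h) i]
      nth_rewrite 1 [e]
      group
    have h3 : d * d ∈ EE y z := by
      have := mul_mem (inv_mem h1) (mem_EE y z)
      rw [h2] at this
      nth_rewrite 2 [e] at this
      rwa [show (x ^ i * d⁻¹)⁻¹ * (x ^ i * d) = d * d by group] at this
    have h4 : d ∈ EE y z ⊓ D := ⟨f3a_sq h (h.hD.1 hd) h3, hd⟩
    rw [h.st.Dinf hE h.hD (EE_ne hyD)] at h4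
    exact hyB (e ▸ mul_mem (pow_mem (mem_EE x z) i) (mem_sup_right h4))
  rcases f3a_mod h k with e | e | e | e
  · rwa [e, mul_one]
  · rw [e] at hk; exact absurd (pow_mem hk 2) key
  · rw [e] at hk; exact absurd hk key
  · rw [e] at hk
    have := pow_mem hk 2
    rw [← pow_mul, show 3 * 2 = 4 + 2 by norm_num, pow_add, f3a_four h, one_mul] at this
    exact absurd this key

/-- `C(x) ∩ N(P) = E ∪ E h²`, `E = ⟨x, z⟩ = C_P(x)` (`Dcen`): `h²` centralizes `x`; `p h^k` with `k`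
odd sends `x` into `x⁻¹ ⟨z⟩` (`comm_mem`), and `x² ∉ ⟨z⟩`. So `E` has index 2 (`h² ∉ P`). -/
theorem card_b (h : Fb P z D h0 a x) :
    Nat.card (Cz x ⊓ Nm (P : Subgroup S) : Subgroup S) = 50 := by
  have hE := isD_EE h h.xP h.xD
  have tC : h0 ^ 2 ∈ Cz x := mem_Cz.2 (mul_inv_eq_iff_eq_mul.1 (f3a_x h))
  have hle : EE x z ≤ Cz x ⊓ Nm (P : Subgroup S) :=
    le_inf (EE_le_Cz h h.xP h.xD) (hE.1.trans le_normalizer)
  have tP : h0 ^ 2 ∉ (P : Subgroup S) := fun ht => by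
    have e := f3a_z h
    rw [h.st.zc _ ht, mul_inv_cancel_right] at e
    have e2 : z * z ∈ (⊥ : Subgroup S) := by
      nth_rewrite 1 [e]; rw [inv_mul_cancel]; exact one_mem _
    exact h.st.z1 (mem_bot.1 (f3a_sq h h.st.zP e2))
  have inE : ∀ p ∈ (P : Subgroup S), p ∈ Cz x → p ∈ EE x z := fun p hp hc =>
    h.st.Dcen hE (mem_EE x z) (notZ h h.xD) hp (mem_Cz.1 hc)
  have odd : ∀ p ∈ (P : Subgroup S), ∀ s : S, s * x * s⁻¹ = x⁻¹ → p * s ∉ Cz x := fun p hp s hs hc => by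
    have e : p * x⁻¹ * p⁻¹ = x := by
      rw [← hs, show p * (s * x * s⁻¹) * p⁻¹ = p * s * x * (p * s)⁻¹ by group, mem_Cz.1 hc,
        mul_inv_cancel_right]
    have := h.st.comm_mem hp (inv_mem h.xP)
    rw [e, inv_inv] at this
    exact notZ h h.xD (f3a_sq h h.xP this)
  have idx : ((EE x z).subgroupOf (Cz x ⊓ Nm (P : Subgroup S))).index = 2 := by
    refine index_eq_two_iff.2 ⟨⟨h0 ^ 2, tC, pow_mem h.hN 2⟩, fun b => ?_⟩
    obtain ⟨b, hbC, hbN⟩ := b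
    change Xor (b * h0 ^ 2 ∈ EE x z) (b ∈ EE x z)
    have nb : ¬ (b * h0 ^ 2 ∈ EE x z ∧ b ∈ EE x z) := fun ⟨h1, h2⟩ =>
      tP (hE.1 ((mul_mem_cancel_left h2).1 h1))
    have ob : b * h0 ^ 2 ∈ EE x z ∨ b ∈ EE x z := by
      obtain ⟨p, hp, k, rfl⟩ := h.nP b hbN
      rcases f3a_mod h k with e | e | e | e
      · rw [e, mul_one] at hbC ⊢
        exact Or.inr (inE p hp hbC)
      · rw [e] at hbC; exact absurd hbC (odd p hp _ h.hx)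
      · rw [e] at hbC ⊢
        left
        rw [mul_assoc, ← pow_add, f3a_four h, mul_one]
        exact inE p hp ((mul_mem_cancel_right tC).1 hbC)
      · rw [e] at hbC
        refine absurd hbC (odd p hp _ ?_)
        rw [show h0 ^ 3 * x * (h0 ^ 3)⁻¹ = h0 * (h0 ^ 2 * x * (h0 ^ 2)⁻¹) * h0⁻¹ by group,
          f3a_x h, h.hx]
    unfold Xor
    tauto
  have := ((EE x z).subgroupOf (Cz x ⊓ Nm (P : Subgroup S))).card_mul_index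
  rw [idx, Nat.card_congr (subgroupOfEquivOfLe hle).toEquiv, hE.2] at this
  omega

/-- `y = x^i z^j`, `5 ∤ i`; `a x a⁻¹ = x z^c` with `5 ∤ c` (`comm_mem`, `Dcen`), so `y` is conjugate
under a power of `a` to `x^i`, which lies in the same Sylow subgroups as `x`. -/
theorem nY_b (h : Fb P z D h0 a x) {y : S} (hy : y ∈ EE x z) (hyD : y ∉ D) : nY y = nY x := by
  have hE := isD_EE h h.xP h.xD
  have hyP := hE.1 hy
  have aP := h.hD.1 h.aD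
  obtain ⟨i, j, e⟩ := h.st.mem_D h.xP hy
  have hu := h.st.comm_mem aP hyP
  set u := a * y * a⁻¹ * y⁻¹ with hu'
  have u1 : u ≠ 1 := fun e1 => hyD (h.st.Dcen h.hD h.aD h.aZ hyP (by
    rw [hu', mul_inv_eq_one, mul_inv_eq_iff_eq_mul] at e1; exact e1.symm))
  have uc : ∀ g ∈ (P : Subgroup S), g * u = u * g := fun g hg => h.st.a1a_zc hu hg
  have zu := (h.st.chg (h.st.a1a_zle hu) u1 uc).2
  have ind : ∀ m : ℕ, a ^ m * y * (a ^ m)⁻¹ = y * u ^ m := fun m => by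
    induction m with
    | zero => simp
    | succ m ih =>
      have c1 : a * u ^ m = u ^ m * a := h.st.a1a_zc (pow_mem hu m) aP
      have c2 : a * y * a⁻¹ = y * u := by rw [uc y hyP, hu']; group
      rw [show a ^ (m + 1) * y * (a ^ (m + 1))⁻¹ = a * (a ^ m * y * (a ^ m)⁻¹) * a⁻¹ by group, ih,
        show a * (y * u ^ m) * a⁻¹ = a * y * a⁻¹ * (a * u ^ m) * a⁻¹ by group, c1, c2]
      group
  obtain ⟨m, hm⟩ := (mem_powers_iff_mem_zpowers (x := u) (y := (z ^ j)⁻¹)).2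
    (zu ▸ inv_mem (pow_mem (mem_zpowers z) j))
  have hm' : u ^ m = (z ^ j)⁻¹ := hm
  have e2 : a ^ m * y * (a ^ m)⁻¹ = x ^ i := by
    rw [ind, hm']; nth_rewrite 1 [e]; group
  have hi : x ∈ zpowers (x ^ i) := by
    rw [mem_zpowers_pow_iff, ord5 h h.xP h.xD]
    refine (Nat.coprime_comm.1 ((Nat.Prime.coprime_iff_not_dvd (by norm_num)).2 fun ⟨c, hc⟩ => hyD ?_))
    rw [e, hc, pow_mul, h.st.pow5 h.xP, one_pow, one_mul]
    exact pow_mem (h.st.zD h.hD) j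
  rw [← f3a_nY_conj (a ^ m) y, e2]
  exact Nat.card_congr (Equiv.subtypeEquivRight fun Q =>
    ⟨fun hQ => zpowers_le.2 hQ hi, fun hQ => pow_mem hQ i⟩)

end Cfsg.Agent.MCF
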