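import Cfsg.Agent.MCF.F3

/-! Elements outside `D` and `⟨x, z⟩`. -/

set_option autoImplicit false

namespace Cfsg.Agent.MCF

open Subgroup Cfsg.Agent.MCX

variable {S : Type*} [Group S] [Finite S] {P : Sylow 5 S} {z : S} {D : Subgroup S} {h0 a x : S}

/-- `burn`, `inv_syl`, `fpf`: for `l ∈ {2, 3}` a Sylow `l`-subgroup `R` of `M` is normalized by `E`, and
`|R| = l^k ≡ 1 (mod 5)` with `k ≤ 7` (`l^k ∣ |S|`), so `k ∈ {0, 4}`. -/
theorem part (h : Fb P z D h0 a x) {y : S} (hy : y ∈ (P : Subgroup S)) (hyD : y ∉ D)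
    (hyB : y ∉ EE x z) {M : Subgroup S} (hM : EE y z ≤ M) (hP : ¬ (P : Subgroup S) ≤ M)
    {l : ℕ} (hl : l = 2 ∨ l = 3) :
    ∃ R : Subgroup S, R ≤ M ∧ EE y z ≤ Nm R ∧ Nat.card R = l ^ (Nat.card M).factorization l ∧
      ((Nat.card M).factorization l = 0 ∨ (Nat.card M).factorization l = 4) := by
  have hp : l.Prime := by rcases hl with rfl | rfl <;> norm_num
  have := Fact.mk hp
  obtain ⟨U, u1, u2, u3, u4⟩ := burn h hy hyD hyB hM hP
  obtain ⟨R, r1, r2, r3⟩ := inv_syl (P.isPGroup'.to_le (isD_EE h hy hyD).1) (hM.trans u2) u3 l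
  have e : (Nat.card M).factorization l = (Nat.card U).factorization l := by
    rw [u4, Nat.factorization_mul (by norm_num) Nat.card_pos.ne', Finsupp.add_apply,
      Nat.factorization_eq_zero_of_not_dvd (by rcases hl with rfl | rfl <;> norm_num), zero_add]
  rw [e]
  refine ⟨R, r1.trans u1, r2, r3, ?_⟩
  have h1 := fpf h (r2 (mem_EE' y z)) fun k => u3 (k.trans (card_dvd_of_le r1))
  have h2 := card_subgroup_dvd_card R
  rw [r3] at h1 h2
  rw [h.st.card] at h2
  generalize (Nat.card U).factorization l = k at h1 h2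
  have h3 : k < 8 := by
    by_contra c
    have := (pow_dvd_pow l (not_lt.1 c)).trans h2
    rcases hl with rfl | rfl <;> norm_num at this
  rcases hl with rfl | rfl <;> interval_cases k <;> simp_all [Nat.ModEq]

theorem f4_zero (h : Fb P z D h0 a x) {y : S} (hy : y ∈ (P : Subgroup S)) (hyD : y ∉ D)
    (hyB : y ∉ EE x z) {l : ℕ} (hl : l = 2 ∨ l = 3) : ¬ l ∣ Nat.card (Cz y) := by
  have hp : l.Prime := by rcases hl with rfl | rfl <;> norm_num
  have := Fact.mk hp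
  obtain ⟨R, r1, r2, r3, e | e⟩ := part h hy hyD hyB (EE_le_Cz h hy hyD) (P_not_le h hy hyD) hl
  · intro k
    have := (hp.dvd_iff_one_le_factorization Nat.card_pos.ne').1 k
    omega
  exfalso
  rw [e] at r3
  have h1 : ¬ (P : Subgroup S) ≤ Nm R := fun k => by
    obtain ⟨p, p1, p2⟩ := SetLike.not_le_iff_exists.1 (P_not_le h hy hyD)
    have c1 := h.st.comm_mem p1 hy
    have c2 := (h.st.chg (h.st.a1a_zle c1) (fun e => p2 (mem_Cz.2 (by
      rwa [mul_inv_eq_one, mul_inv_eq_iff_eq_mul] at e))) fun g hg => h.st.a1a_zc c1 hg).2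
    have c3 : y ∈ Ce R := mem_Ce.2 fun r hr => mem_Cz.1 (r1 hr)
    have c4 : p * y * p⁻¹ ∈ Ce R := mem_Ce.2 fun r hr => by
      have := mem_Ce.1 c3 _ ((mem_normalizer_iff''.1 (k p1) r).1 hr)
      calc r * (p * y * p⁻¹) = p * (p⁻¹ * r * p * y) * p⁻¹ := by group
        _ = _ := by rw [this]; group
    have c5 : z ∈ Ce R := zpowers_le.2 (mul_mem c4 (inv_mem c3)) (c2.ge (mem_zpowers z))
    have c6 : R ≤ (P : Subgroup S) := h.cz ▸ fun r hr => mem_Cz.2 (mem_Ce.1 c5 r hr)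
    have c7 := card_dvd_of_le c6
    rw [r3, h.st.cardQ] at c7
    rcases hl with rfl | rfl <;> norm_num at c7
  obtain ⟨-, -, -, -, e'⟩ := part h hy hyD hyB r2 h1 hl
  have h2 : l ^ (4 + 1) ∣ Nat.card (Nm R) := Sylow.prime_pow_dvd_card_normalizer (by
    rw [h.st.card]
    rcases hl with rfl | rfl <;> norm_num) r3
  have := (hp.pow_dvd_iff_le_factorization Nat.card_pos.ne').1 h2
  omega

/-- Apply `part` to `M = C(y)`. If `|R| = l⁴`: `P ≰ N(R)` (else for `p ∈ P - E` the commutator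
`p y p⁻¹ y⁻¹ ∈ ⟨z⟩ - 1` centralizes `R`, so `R ≤ C(z) = P`); `R` is properly contained in a Sylow
`l`-subgroup `T` of `S` (`l⁵ ∣ |S|`), so `l⁵ ∣ |N(R)|` (normalizers grow: `Sylow.exists_subgroup_card_pow_succ`,
index `l` so normal, or `normalizerCondition_of_isNilpotent`), against `part` for `M = N(R)`.
So `|C(y)|` is prime to 6, divides `2^7 3^6 5^3` (`cen_dvd`), `125 ∤`, so `|C(y)| ∣ 25`, and `cardC`
with `E ≤ C(y) ⊓ N(P)` gives `nY y = 1`. -/
theorem nY_c (h : Fb P z D h0 a x) {y : S} (hy : y ∈ (P : Subgroup S)) (hyD : y ∉ D)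
    (hyB : y ∉ EE x z) : nY y = 1 := by
  have ho := ord5 h hy hyD
  have h1 := h.st.cen_dvd (u := y) (fun e => hyD (e ▸ D.one_mem)) (by rw [ho]; norm_num)
    (by rw [ho]; norm_num)
  have h2 := (Nat.prime_two.coprime_iff_not_dvd.2 (f4_zero h hy hyD hyB (Or.inl rfl))).symm
  have h3 := (Nat.prime_three.coprime_iff_not_dvd.2 (f4_zero h hy hyD hyB (Or.inr rfl))).symm
  obtain ⟨i, i1, i2⟩ := (Nat.dvd_prime_pow fact5.out).1
    ((Nat.Coprime.mul_right (h2.pow_right 7) (h3.pow_right 6)).dvd_of_dvd_mul_left h1)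
  have h4 := not125 h hy hyD (EE_le_Cz h hy hyD) (P_not_le h hy hyD)
  have h5 := cardC h hy hyD
  obtain ⟨m, hm⟩ := card_dvd_of_le
    (le_inf (EE_le_Cz h hy hyD) ((isD_EE h hy hyD).1.trans le_normalizer) :
      EE y z ≤ Cz y ⊓ Nm (P : Subgroup S))
  rw [hm, (isD_EE h hy hyD).2, i2] at h5
  rw [i2] at h4
  have h6 : nY y * m = 1 := by
    have : nY y * (25 * m) = 25 * (nY y * m) := by ring
    interval_cases i <;> omega
  exact Nat.eq_one_of_mul_eq_one_right h6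

end Cfsg.Agent.MCF
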