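import Cfsg.Agent.MCF.F1
import Cfsg.Agent.MCF.F4

/-! Counting Sylow subgroups modulo 125. -/

set_option autoImplicit false

namespace Cfsg.Agent.MCF

open Subgroup Cfsg.Agent.MCX

variable {S : Type*} [Group S] [Finite S] {P : Sylow 5 S} {z : S} {D : Subgroup S} {h0 a x : S}

theorem f5_card {α : Type*} [Fintype α] (p : α → Prop) [DecidablePred p] :
    Nat.card {a // p a} = (Finset.univ.filter p).card := by
  rw [Nat.card_eq_fintype_card, Fintype.card_subtype]

theorem f5_ne (h : Fb P z D h0 a x) (Q : Sylow 5 S) :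
    ¬ 5 ^ 3 ∣ (Q : Subgroup S).relIndex (P : Subgroup S) ↔
      ∃ y ∈ (Q : Subgroup S), y ∈ (P : Subgroup S) ∧ y ≠ 1 := by
  have e := a9_mul (Q : Subgroup S) (P : Subgroup S)
  rw [h.st.cardQ P] at e
  constructor
  · intro hn
    by_contra hc
    push Not at hc
    have : (Q : Subgroup S) ⊓ (P : Subgroup S) = ⊥ := eq_bot_iff.2 fun y hy => hc y hy.1 hy.2
    rw [this, card_bot, mul_one] at e
    exact hn (by rw [e]; norm_num)
  · rintro ⟨y, h1, h2, h3⟩ ⟨k, hk⟩
    have : Nat.card ((Q : Subgroup S) ⊓ (P : Subgroup S) : Subgroup S) = 1 := by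
      rw [hk, mul_assoc] at e
      have e' : k * Nat.card ((Q : Subgroup S) ⊓ (P : Subgroup S) : Subgroup S) = 1 := by omega
      exact Nat.eq_one_of_mul_eq_one_left e'
    rw [card_eq_one] at this
    have hy : y ∈ (Q : Subgroup S) ⊓ (P : Subgroup S) := ⟨h1, h2⟩
    rw [this] at hy
    exact h3 hy

theorem f5_z (h : Fb P z D h0 a x) {Q : Sylow 5 S} (hQ : Q ≠ P) {y : S} (hy : y ∈ EE x z) (hyD : y ∉ D)
    (hyQ : y ∈ (Q : Subgroup S)) : z ∉ (Q : Subgroup S) := fun hz =>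
  hQ (EE_uq h ((isD_EE h h.xP h.xD).1 hy) hyD Q (sup_le (zpowers_le.2 hyQ) (zpowers_le.2 hz)))

theorem f5_B (h : Fb P z D h0 a x) {Q : Sylow 5 S} (hQ : Q ≠ P) {y : S} (hy : y ∈ (P : Subgroup S))
    (hyD : y ∉ D) (hyQ : y ∈ (Q : Subgroup S)) : y ∈ EE x z := by
  by_contra hc
  exact hQ (nY_one Q hy (nY_c h hy hyD hc) hyQ)

/-- `cnt 5 3 P`: `n₅ ≡ |T| (mod 125)`, `T = {Q ∣ P ⊓ Q ≠ 1}`. `T` is the disjoint union of
`{Q ≥ D}` (6 members, `nS6`) and `T₅ = {Q ∣ ¬ D ≤ Q, P ⊓ Q ≠ 1}`. For `Q ∈ T₅`: `P ⊓ Q ⊓ D = 1` (`inD`),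
`|P ⊓ Q| = 5` (order 25 is excluded by `zD`), and `P ⊓ Q ≤ B = ⟨x, z⟩` (`nY_c`, `nY_one`). Count pairs
`(y, Q)`, `y ∈ B - D` (20 elements, `Dinf`), `y ∈ Q ≠ P` (then `¬ D ≤ Q`: else `⟨y, z⟩ ≤ Q`, `EE_uq`):
`20 (nY x - 1) = 4 |T₅|` (`nY_b`). With `n5 = 1796256 ≡ 6`: `5 (nY x - 1) ≡ 0 (mod 125)`. -/
theorem nY_mod (h : Fb P z D h0 a x) : nY x ≡ 1 [MOD 25] := by
  classical
  letI : Fintype S := Fintype.ofFinite S
  letI : Fintype (Sylow 5 S) := Fintype.ofFinite _
  have hB := isD_EE h h.xP h.xD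
  have zD := h.st.zD h.hD
  have c1 := cnt 5 3 P
  have c2 := nS6 h
  rw [n5 h, f5_card] at c1
  rw [nS, f5_card] at c2
  set T5 := Finset.univ.filter fun Q : Sylow 5 S =>
    Q ≠ P ∧ ∃ y ∈ EE x z, y ∉ D ∧ y ∈ (Q : Subgroup S) with hT5
  have hU : (Finset.univ.filter fun Q : Sylow 5 S => ¬ 5 ^ 3 ∣ (Q : Subgroup S).relIndex (P : Subgroup S)) =
      (Finset.univ.filter fun Q : Sylow 5 S => D ≤ (Q : Subgroup S)) ∪ T5 := by
    ext Q
    simp only [hT5, Finset.mem_filter, Finset.mem_univ, true_and, Finset.mem_union, f5_ne h]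
    constructor
    · rintro ⟨y, h1, h2, h3⟩
      by_cases hyD : y ∈ D
      · exact Or.inl (inD h hyD h3 Q h1)
      by_cases hQ : Q = P
      · exact Or.inl (hQ ▸ h.hD.1)
      · exact Or.inr ⟨hQ, y, f5_B h hQ h2 hyD h1, hyD, h1⟩
    · rintro (hD | ⟨-, y, h1, h2, h3⟩)
      · exact ⟨z, hD zD, h.st.zP, h.st.z1⟩
      · exact ⟨y, h3, hB.1 h1, fun e => h2 (e ▸ one_mem _)⟩
  have hdj : Disjoint (Finset.univ.filter fun Q : Sylow 5 S => D ≤ (Q : Subgroup S)) T5 := by
    rw [Finset.disjoint_left]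
    intro Q h1 h2
    simp only [hT5, Finset.mem_filter, Finset.mem_univ, true_and] at h1 h2
    obtain ⟨hQ, y, k1, k2, k3⟩ := h2
    exact f5_z h hQ k1 k2 k3 (h1 zD)
  rw [hU, Finset.card_union_of_disjoint hdj, c2] at c1
  set s := Finset.univ.filter fun y : S => y ∈ EE x z ∧ y ∉ D with hs
  have cs : s.card = 20 := by
    have e1 := Finset.card_filter_add_card_filter_not (s := Finset.univ.filter fun y : S => y ∈ EE x z)
      (fun y => y ∈ D)
    rw [Finset.filter_filter, Finset.filter_filter, ← f5_card fun y : S => y ∈ EE x z,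
      ← f5_card fun y : S => y ∈ EE x z ∧ y ∈ D] at e1
    have e2 : Nat.card {y : S // y ∈ EE x z} = 25 := hB.2
    have e3 : Nat.card {y : S // y ∈ EE x z ∧ y ∈ D} = 5 := by
      have := h.st.a1a_cz
      rw [← h.st.Dinf hB h.hD (EE_ne h.xD)] at this
      exact this
    rw [e2, e3, ← hs] at e1
    omega
  have key := Finset.card_mul_eq_card_mul (s := s) (t := T5) (m := nY x - 1) (n := 4)
    (fun (y : S) (Q : Sylow 5 S) => y ∈ (Q : Subgroup S)) (by
      intro y hy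
      simp only [hs, Finset.mem_filter, Finset.mem_univ, true_and] at hy
      rw [← nY_b h hy.1 hy.2, nY, f5_card, ← Finset.card_erase_of_mem (a := P) (by
        simp only [Finset.mem_filter, Finset.mem_univ, true_and]; exact hB.1 hy.1)]
      congr 1
      ext Q
      simp only [hT5, Finset.mem_bipartiteAbove, Finset.mem_filter, Finset.mem_univ, true_and,
        Finset.mem_erase]
      exact ⟨fun k => ⟨k.1.1, k.2⟩, fun k => ⟨⟨k.1, y, hy.1, hy.2, k.2⟩, k.2⟩⟩) (by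
      intro Q hQ
      simp only [hT5, Finset.mem_filter, Finset.mem_univ, true_and] at hQ
      obtain ⟨hQ, y, k1, k2, k3⟩ := hQ
      have hz := f5_z h hQ k1 k2 k3
      have c5 : Nat.card ((Q : Subgroup S) ⊓ (P : Subgroup S) : Subgroup S) = 5 := by
        rcases a1_card h.st (inf_le_right : (Q : Subgroup S) ⊓ (P : Subgroup S) ≤ _) with c | c | c | c
        · rw [card_eq_one] at c
          have hy : y ∈ (Q : Subgroup S) ⊓ (P : Subgroup S) := ⟨k3, hB.1 k1⟩
          rw [c, mem_bot] at hy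
          exact absurd (hy ▸ one_mem _) k2
        · exact c
        · exact absurd (h.st.zD ⟨inf_le_right, c⟩).1 hz
        · have : z ∈ (Q : Subgroup S) ⊓ (P : Subgroup S) := by rw [c]; exact h.st.zP
          exact absurd this.1 hz
      have c6 : (Finset.univ.filter fun u : S => u ∈ (Q : Subgroup S) ⊓ (P : Subgroup S)).card = 5 := by
        rw [← f5_card]; exact c5
      have c7 := Finset.card_erase_of_mem
        (s := Finset.univ.filter fun u : S => u ∈ (Q : Subgroup S) ⊓ (P : Subgroup S)) (a := 1) (by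
          simp only [Finset.mem_filter, Finset.mem_univ, true_and]; exact one_mem _)
      rw [c6] at c7
      refine Eq.trans ?_ c7
      congr 1
      ext u
      simp only [hs, Finset.mem_bipartiteBelow, Finset.mem_filter, Finset.mem_univ, true_and,
        Finset.mem_erase, mem_inf]
      constructor
      · rintro ⟨⟨j1, j2⟩, j3⟩
        exact ⟨fun e => j2 (e ▸ one_mem _), j3, hB.1 j1⟩
      · rintro ⟨j1, j2, j3⟩
        have uD : u ∉ D := fun c => hz (inD h c j1 Q j2 zD)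
        exact ⟨⟨f5_B h hQ j3 uD j2, uD⟩, j2⟩)
  have pos : 0 < nY x := by
    haveI : Nonempty {Q : Sylow 5 S // x ∈ (Q : Subgroup S)} := ⟨⟨P, h.xP⟩⟩
    exact Nat.card_pos
  rw [cs] at key
  unfold Nat.ModEq at c1 ⊢
  norm_num at c1
  omega

end Cfsg.Agent.MCF
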