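import Cfsg.Agent.MCF.F3
import Cfsg.Agent.MCX.A9a
import Cfsg.Agent.MCX.A0

/-! The centralizer of `x`. -/

set_option autoImplicit false

namespace Cfsg.Agent.MCF

open Subgroup Cfsg.Agent.MCX

variable {S : Type*} [Group S] [Finite S] {P : Sylow 5 S} {z : S} {D : Subgroup S} {h0 a x : S}

theorem f6_card {H : Type*} [Group H] [Finite H] {p k : ℕ} [hp : Fact p.Prime] (Q : Sylow p H)
    (h1 : p ^ k ∣ Nat.card H) (h2 : ¬ p ^ (k + 1) ∣ Nat.card H) :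
    Nat.card (Q : Subgroup H) = p ^ k := by
  rw [Q.card_eq_multiplicity]
  congr 1
  have h0 : Nat.card H ≠ 0 := Nat.card_pos.ne'
  have h3 := (hp.out.pow_dvd_iff_le_factorization h0).1 h1
  have h4 := mt (hp.out.pow_dvd_iff_le_factorization h0).2 h2
  omega

theorem f6_sq (h : Fb P z D h0 a x) (T : Sylow 2 (Cz x)) {g : Cz x}
    (hg : g ∈ (T : Subgroup (Cz x))) : g ^ 2 = 1 := by
  obtain ⟨k, hk⟩ := IsPGroup.iff_orderOf.1 T.2 ⟨g, hg⟩
  rw [← orderOf_coe, ← orderOf_coe] at hk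
  change orderOf (g : S) = 2 ^ k at hk
  rcases h.st.com6 (ord5 h h.xP h.xD) (mem_Cz.1 g.2) (fun h5 => by
    rw [hk] at h5
    exact absurd ((by norm_num : Nat.Prime 5).dvd_of_dvd_pow h5) (by norm_num)) with e | e
  · exact Subtype.ext e
  · have h1 : orderOf (g : S) = 1 := Nat.Coprime.eq_one_of_dvd
      (by rw [hk]; exact Nat.Coprime.pow_left k (by norm_num)) (orderOf_dvd_of_pow_eq_one e)
    have h2 : g = 1 := Subtype.ext (orderOf_eq_one_iff.1 h1)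
    rw [h2, one_pow]

theorem f6_le (h : Fb P z D h0 a x) (T : Sylow 2 (Cz x)) {u : Cz x}
    (hu : u ∈ (T : Subgroup (Cz x))) : (T : Subgroup (Cz x)) ≤ Cz u := fun g hg => by
  have e : ∀ v ∈ (T : Subgroup (Cz x)), v⁻¹ = v := fun v hv =>
    inv_eq_of_mul_eq_one_right (sq v ▸ f6_sq h T hv)
  rw [mem_Cz, ← e _ (mul_mem hg hu), mul_inv_rev, e g hg, e u hu]

theorem f6_dvd (h : Fb P z D h0 a x) : Nat.card (Cz x) ∣ 2 ^ 7 * 3 ^ 6 * 5 ^ 3 := by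
  have h5 := ord5 h h.xP h.xD
  exact h.st.cen_dvd (fun e => h.xD (e ▸ D.one_mem)) (by rw [h5]; norm_num) (by rw [h5]; norm_num)

theorem f6_25 (h : Fb P z D h0 a x) {u : Cz x} (hu : orderOf u = 2) :
    ¬ 5 ^ 2 ∣ Nat.card (Cz u) := fun hd => by
  have hE := EE_le_Cz h h.xP h.xD
  have hD := isD_EE h h.xP h.xD
  have h1 := not125 h h.xP h.xD hE (P_not_le h h.xP h.xD)
  have h2 : ∀ Q : Sylow 5 (Cz x), Nat.card (Q : Subgroup (Cz x)) = 5 ^ 2 := fun Q =>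
    f6_card Q (hd.trans (card_subgroup_dvd_card _)) h1
  obtain ⟨F⟩ : Nonempty (Sylow 5 (Cz u)) := inferInstance
  have h3 : Nat.card (F : Subgroup (Cz u)) = 5 ^ 2 :=
    f6_card F hd fun e => h1 (e.trans (card_subgroup_dvd_card _))
  obtain ⟨Q, hQ⟩ := (F.2.map (Cz u).subtype).exists_le_sylow
  have h4 := eq_of_le_of_card_ge hQ (by rw [card_map_of_injective (subtype_injective _), h3, h2])
  have h5 : IsPGroup 5 ((EE x z).subgroupOf (Cz x)) := (P.2.to_le hD.1).comap_subtype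
  obtain ⟨Q', hQ'⟩ := h5.exists_le_sylow
  obtain ⟨c, rfl⟩ := MulAction.exists_smul_eq (Cz x) Q Q'
  have h6 : ((c * u * c⁻¹ : Cz x) : S) ∈ Ce (EE x z) := mem_Ce.2 fun e he => by
    have h7 := hQ' (x := ⟨e, hE he⟩) he
    rw [Sylow.coe_subgroup_smul, mem_pointwise_smul_iff_inv_smul_mem, ← h4] at h7
    have h8 : c⁻¹ * ⟨e, hE he⟩ * c ∈ Cz u := by simpa using map_subtype_le _ h7
    have h9 := congrArg Subtype.val (mem_Cz.1 h8)
    simp only [coe_mul, coe_inv] at h9 ⊢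
    calc e * (c * u * (c : S)⁻¹) = c * ((c : S)⁻¹ * e * c * u) * (c : S)⁻¹ := by group
      _ = c * u * (c : S)⁻¹ * e := by rw [h9]; group
  rw [h.cD _ hD] at h6
  have h7 := (EE x z).orderOf_dvd_natCard h6
  rw [hD.2, orderOf_coe, ← MulAut.conj_apply, MulEquiv.orderOf_eq, hu] at h7
  norm_num at h7

/-- `C = C(x)`. Two Sylow 2-subgroups `T₁, T₂` of `C` with a common `u ≠ 1` are equal: elements of
`T_i` have square 1 (`com6`), so `T_i` is abelian and `T_i ≤ H = C ⊓ C(u)`; `3 ∤ |H|` (`no30`),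
`25 ∤ |H|` (a subgroup of order 25 of `C` is a Sylow subgroup (`not125`), conjugate in `C` to
`E = ⟨x, z⟩ = C(E)` (`cD`), which has odd order); `|H| ∣ 2^7 3^6 5^3`; so `|H| ∣ 5 |T₁|`, `x ∈ H` normalizes
`T₁`, `H = T₁ ⟨x⟩` and `T₁` is normal in `H`. -/
theorem ti2 (h : Fb P z D h0 a x) (T₁ T₂ : Sylow 2 (Cz x)) {u : Cz x} (h1 : u ≠ 1)
    (hu₁ : u ∈ (T₁ : Subgroup (Cz x))) (hu₂ : u ∈ (T₂ : Subgroup (Cz x))) : T₁ = T₂ := by
  have : Fact (Nat.Prime 3) := ⟨by norm_num⟩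
  have hu : orderOf u = 2 := orderOf_eq_prime (f6_sq h T₁ hu₁) h1
  have h5 := ord5 h h.xP h.xD
  have h3 : ¬ 3 ∣ Nat.card (Cz u) := fun hd => by
    obtain ⟨r, hr⟩ := exists_prime_orderOf_dvd_card' 3 hd
    rw [← orderOf_coe, ← orderOf_coe] at hr
    exact h.st.no30 h5 ((orderOf_coe u).trans hu) hr (mem_Cz.1 u.2) (mem_Cz.1 r.1.2)
      (congrArg Subtype.val (mem_Cz.1 r.2)).symm
  have h25 := f6_25 h hu
  let R := T₁.subtype (f6_le h T₁ hu₁)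
  let y : Cz u := ⟨⟨x, mem_Cz.2 rfl⟩, mem_Cz.2 (Subtype.ext (mem_Cz.1 u.2).symm)⟩
  have hy : y ∈ normalizer (R : Set (Cz u)) := centralizer_le_normalizer _ fun g _ =>
    Subtype.ext (Subtype.ext (mem_Cz.1 g.1.2))
  have h6 := (normalizer (R : Set (Cz u))).orderOf_dvd_natCard hy
  rw [← orderOf_coe, ← orderOf_coe] at h6
  change orderOf x ∣ _ at h6
  rw [h5] at h6
  have h7 := (normalizer (R : Set (Cz u))).card_mul_index
  rw [← R.card_eq_index_normalizer] at h7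
  have h8 : Nat.card (Sylow 2 (Cz u)) ∣ Nat.card (Cz u) := h7 ▸ dvd_mul_left _ _
  have a2 : ¬ 2 ∣ Nat.card (Sylow 2 (Cz u)) := not_dvd_card_sylow 2 _
  have a3 : ¬ 3 ∣ Nat.card (Sylow 2 (Cz u)) := fun e => h3 (e.trans h8)
  have a5 : ¬ 5 ∣ Nat.card (Sylow 2 (Cz u)) := fun e => h25 (by
    rw [← h7, sq]; exact Nat.mul_dvd_mul h6 e)
  have h9 : Nat.card (Sylow 2 (Cz u)) = 1 := Nat.Coprime.eq_one_of_dvd
    (Nat.Coprime.mul_right (Nat.Coprime.mul_right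
      (((Nat.Prime.coprime_iff_not_dvd (by norm_num)).2 a2).symm.pow_right 7)
      (((Nat.Prime.coprime_iff_not_dvd (by norm_num)).2 a3).symm.pow_right 6))
      (((Nat.Prime.coprime_iff_not_dvd (by norm_num)).2 a5).symm.pow_right 3))
    (h8.trans ((card_subgroup_dvd_card _).trans (f6_dvd h)))
  exact Sylow.subtype_injective ((Nat.card_eq_one_iff_unique.1 h9).1.elim R
    (T₂.subtype (f6_le h T₂ hu₂)))

theorem f6_kill (h : Fb P z D h0 a x) {k m : ℕ} (hk : k ≠ 0) (hc : Nat.card (Cz x) = 2 ^ k * m)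
    (hm : ¬ 2 ∣ m) (hd : ∀ n, n ∣ m → n ≡ 1 [MOD 2 ^ k] → n = 1) : 2 ^ k ≡ 1 [MOD 5] := by
  obtain ⟨T⟩ : Nonempty (Sylow 2 (Cz x)) := inferInstance
  have h1 : Nat.card (T : Subgroup (Cz x)) = 2 ^ k := f6_card T (hc ▸ dvd_mul_right _ _) fun e => by
    rw [hc, pow_succ] at e
    exact hm (Nat.dvd_of_mul_dvd_mul_left (by positivity) e)
  have h2 : (T : Subgroup (Cz x)).index = m := by
    have := (T : Subgroup (Cz x)).card_mul_index
    rw [h1, hc] at this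
    exact Nat.eq_of_mul_eq_mul_left (by positivity) this
  have h3 := cnt 2 k T
  have h4 : ¬ 2 ^ k ∣ (T : Subgroup (Cz x)).relIndex (T : Subgroup (Cz x)) := by
    rw [relIndex_self, Nat.dvd_one]
    exact (Nat.one_lt_pow hk one_lt_two).ne'
  have h5 : ∀ Q : Sylow 2 (Cz x), ¬ 2 ^ k ∣ (Q : Subgroup (Cz x)).relIndex (T : Subgroup (Cz x)) →
      Q = T := fun Q hQ => by
    by_contra hne
    have h6 : (Q : Subgroup (Cz x)) ⊓ T = ⊥ := eq_bot_iff.2 fun u hu =>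
      mem_bot.2 (by_contra fun h7 => hne (ti2 h Q T h7 hu.1 hu.2))
    rw [← inf_relIndex_right, h6, relIndex_bot_left, h1] at hQ
    exact hQ dvd_rfl
  rw [Nat.card_eq_one_iff_exists.2 ⟨⟨T, h4⟩, fun Q => Subtype.ext (h5 Q Q.2)⟩] at h3
  have h6 := hd _ (h2 ▸ T.card_dvd_index) h3
  rw [T.card_eq_index_normalizer, index_eq_one] at h6
  have h7 : z ∈ Nm ((T : Subgroup (Cz x)).map (Cz x).subtype) :=
    le_normalizer_map _ ⟨⟨z, EE_le_Cz h h.xP h.xD (mem_EE' x z)⟩, h6.ge trivial, rfl⟩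
  have h8 := card_map_of_injective (K := (T : Subgroup (Cz x))) (Cz x).subtype_injective
  rw [h1] at h8
  rw [← h8]
  exact fpf h h7 fun e => by
    rw [h8] at e
    exact absurd ((by norm_num : Nat.Prime 5).dvd_of_dvd_pow e) (by norm_num)

/-- `|C| = 50 n` (`cardC`, `card_b`), `|C| ∣ 2^7 3^6 5^3`, `n ≡ 1 (mod 25)` give `n ∈ {1, 576, 7776}`.
If `|C| = 2^7 3^2 5^2` or `2^6 3^5 5^2`: `ti2` and `cnt 2 7` resp. `cnt 2 6` in the group `C` give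
`n₂ ≡ 1 (mod 128)` resp. `(mod 64)`, `n₂ ∣ 225` resp. `6075`, so `n₂ = 1`; the normal Sylow 2-subgroup
is normalized by `z ∈ C`, and `128, 64 ≢ 1 (mod 5)` (`fpf`). -/
theorem nY_x (h : Fb P z D h0 a x) (hm : nY x ≡ 1 [MOD 25]) : nY x = 1 := by
  have h1 := cardC h h.xP h.xD
  rw [card_b h] at h1
  have h2 := f6_dvd h
  have h3 : nY x ∣ 2 ^ 6 * 3 ^ 6 := by
    rw [h1, show 2 ^ 7 * 3 ^ 6 * 5 ^ 3 = 2 ^ 6 * 3 ^ 6 * 5 * 50 by norm_num] at h2
    refine Nat.Coprime.dvd_of_dvd_mul_right (((Nat.Prime.coprime_iff_not_dvd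
      (by norm_num : Nat.Prime 5)).2 ?_).symm) (Nat.dvd_of_mul_dvd_mul_right (by norm_num) h2)
    unfold Nat.ModEq at hm
    omega
  have h4 : nY x = 1 ∨ nY x = 576 ∨ nY x = 7776 := by
    obtain ⟨b, c, hb, hc, e⟩ := (Nat.dvd_mul).1 h3
    obtain ⟨i, hi, rfl⟩ := (Nat.dvd_prime_pow Nat.prime_two).1 hb
    obtain ⟨j, hj, rfl⟩ := (Nat.dvd_prime_pow Nat.prime_three).1 hc
    rw [← e] at hm ⊢
    have key : ∀ i ≤ 6, ∀ j ≤ 6, 2 ^ i * 3 ^ j % 25 = 1 % 25 →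
        2 ^ i * 3 ^ j = 1 ∨ 2 ^ i * 3 ^ j = 576 ∨ 2 ^ i * 3 ^ j = 7776 := by decide +kernel
    exact key i hi j hj hm
  rcases h4 with e | e | e
  · exact e
  · refine absurd (f6_kill h (k := 7) (m := 225) (by norm_num) (by rw [h1, e]; norm_num) (by norm_num)
      fun n hn hn' => ?_) (by decide)
    have key : ∀ n ≤ 225, 225 % n = 0 → n % 2 ^ 7 = 1 % 2 ^ 7 → n = 1 := by decide +kernel
    exact key n (Nat.le_of_dvd (by norm_num) hn) (Nat.mod_eq_zero_of_dvd hn) hn'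
  · refine absurd (f6_kill h (k := 6) (m := 6075) (by norm_num) (by rw [h1, e]; norm_num) (by norm_num)
      fun n hn hn' => ?_) (by decide)
    obtain ⟨b, c, hb, hc, rfl⟩ := (Nat.dvd_mul (m := 3 ^ 5) (n := 5 ^ 2)).1 hn
    obtain ⟨i, hi, rfl⟩ := (Nat.dvd_prime_pow Nat.prime_three).1 hb
    obtain ⟨j, hj, rfl⟩ := (Nat.dvd_prime_pow Nat.prime_five).1 hc
    have key : ∀ i ≤ 5, ∀ j ≤ 2, 3 ^ i * 5 ^ j % 2 ^ 6 = 1 % 2 ^ 6 → 3 ^ i * 5 ^ j = 1 := by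
      decide +kernel
    exact key i hi j hj hn'

end Cfsg.Agent.MCF
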