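import Cfsg.Agent.MCF.F5
import Cfsg.Agent.MCF.F6
import Cfsg.Agent.MCF.BS

/-! The frame `Fb` is contradictory. -/

set_option autoImplicit false

namespace Cfsg.Agent.MCF

open Subgroup Cfsg.Agent.MCX

variable {S : Type*} [Group S] [Finite S] {P : Sylow 5 S} {z : S} {D : Subgroup S} {h0 a x : S}

/-- `A ∪ A w` -/
def ext2 (A : Subgroup S) (w : S) (hw : w * w = 1) (hA : ∀ g ∈ A, w * g * w⁻¹ ∈ A) : Subgroup S where
  carrier := {g | g ∈ A ∨ g * w ∈ A}
  one_mem' := Or.inl A.one_mem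
  mul_mem' := by
    have e : w⁻¹ = w := inv_eq_of_mul_eq_one_right hw
    rintro g k (hg | hg) (hk | hk)
    · exact Or.inl (A.mul_mem hg hk)
    · exact Or.inr (by rw [mul_assoc]; exact A.mul_mem hg hk)
    · refine Or.inr ?_
      have := A.mul_mem hg (hA k hk)
      rw [e] at this
      have e2 : g * w * (w * k * w) = g * (w * w) * k * w := by group
      rwa [e2, hw, mul_one] at this
    · refine Or.inl ?_
      have := A.mul_mem hg (hA _ hk)
      have e2 : g * w * (w * (k * w) * w⁻¹) = g * (w * w) * k := by group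
      rwa [e2, hw, mul_one] at this
  inv_mem' := by
    rintro g (hg | hg)
    · exact Or.inl (A.inv_mem hg)
    · refine Or.inr ?_
      have := hA _ (A.inv_mem hg)
      have e : w⁻¹ = w := inv_eq_of_mul_eq_one_right hw
      have e2 : w * (g * w)⁻¹ * w⁻¹ = g⁻¹ * w⁻¹ := by group
      rwa [e2, e] at this

omit [Finite S] in
theorem mem_ext2 {A : Subgroup S} {w : S} {hw : w * w = 1} {hA : ∀ g ∈ A, w * g * w⁻¹ ∈ A} {g : S} :
    g ∈ ext2 A w hw hA ↔ g ∈ A ∨ g * w ∈ A := Iff.rfl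

theorem nY_all (h : Fb P z D h0 a x) {y : S} (hy : y ∈ (P : Subgroup S)) (hyD : y ∉ D) :
    nY y = 1 := by
  by_cases hB : y ∈ EE x z
  · rw [nY_b h hB hyD]; exact nY_x h (nY_mod h)
  · exact nY_c h hy hyD hB

theorem conj_N (h : Fb P z D h0 a x) {y g : S} (hy : y ∈ (P : Subgroup S)) (hyD : y ∉ D)
    (hg : g * y * g⁻¹ ∈ (P : Subgroup S)) : g ∈ Nm (P : Subgroup S) := by
  have h1 : y ∈ ((g⁻¹ • P : Sylow 5 S) : Subgroup S) := by
    rw [a4a_smul, mem_cj]
    simpa using hg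
  have h2 := nY_one _ hy (nY_all h hy hyD) h1
  have h3 := Sylow.smul_eq_iff_mem_normalizer.1 h2
  simpa using (Nm (P : Subgroup S)).inv_mem h3

theorem pow_mem_P (h : Fb P z D h0 a x) {k : ℕ} : h0 ^ k ∈ (P : Subgroup S) ↔ 4 ∣ k := by
  constructor
  · intro hk
    have h1 := h.st.pow5 hk
    rw [← pow_mul, ← orderOf_dvd_iff_pow_eq_one, h.oh] at h1
    omega
  · intro hk
    rw [← h.oh, orderOf_dvd_iff_pow_eq_one] at hk
    rw [hk]; exact one_mem _

theorem hD_conj (h : Fb P z D h0 a x) {d : S} (hd : d ∈ D) : h0 * d * h0⁻¹ ∈ D := by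
  have hd' := hd
  rw [h.st.Deq h.hD h.aD h.aZ] at hd'
  obtain ⟨i, j, rfl⟩ := h.st.mem_D (h.hD.1 h.aD) hd'
  have : h0 * (a ^ i * z ^ j) * h0⁻¹ = (h0 * a * h0⁻¹) ^ i * (h0 * z * h0⁻¹) ^ j := by
    rw [conj_pow, conj_pow]; group
  rw [this, h.ha, h.hz]
  exact D.mul_mem (D.pow_mem (D.pow_mem h.aD _) _) (D.pow_mem (D.pow_mem (h.st.zD h.hD) _) _)

theorem main (h : Fb P z D h0 a x) : False := by
  have := h.st.simple
  set w := h0 ^ 2 with hwdef
  have hw : w * w = 1 := by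
    rw [hwdef, ← pow_add, ← orderOf_dvd_iff_pow_eq_one, h.oh]
  have hwi : w⁻¹ = w := inv_eq_of_mul_eq_one_right hw
  have hNP : ∀ g ∈ Nm (P : Subgroup S), ∀ p ∈ (P : Subgroup S), g * p * g⁻¹ ∈ (P : Subgroup S) :=
    fun g hg p hp => (mem_normalizer_iff.1 hg p).1 hp
  have hwN : w ∈ Nm (P : Subgroup S) := pow_mem h.hN 2
  have hwD : ∀ d ∈ D, w * d * w⁻¹ ∈ D := fun d hd => by
    have := hD_conj h (hD_conj h hd)
    have e : h0 * (h0 * d * h0⁻¹) * h0⁻¹ = w * d * w⁻¹ := by rw [hwdef, pow_two]; group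
    rwa [e] at this
  have hPD : ∀ p ∈ (P : Subgroup S), ∀ d ∈ D, p * d * p⁻¹ ∈ D := fun p hp d hd =>
    (mem_normalizer_iff.1 (h.st.Dnorm h.hD hp) d).1 hd
  have hwx : w * x = x * w := by
    have e : w * x * w⁻¹ = h0 * (h0 * x * h0⁻¹) * h0⁻¹ := by rw [hwdef, pow_two]; group
    have e2 : h0 * x⁻¹ * h0⁻¹ = (h0 * x * h0⁻¹)⁻¹ := by group
    rw [h.hx, e2, h.hx, inv_inv] at e
    exact mul_inv_eq_iff_eq_mul.1 e
  set C := ext2 (P : Subgroup S) w hw (hNP w hwN) with hC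
  set K := ext2 D w hw hwD with hK
  have memC : ∀ p ∈ (P : Subgroup S), ∀ k : ℕ, p * h0 ^ k ∈ C ↔ 2 ∣ k := by
    intro p hp k
    rw [mem_ext2, mul_assoc, hwdef, ← pow_add, mul_mem_cancel_left hp, mul_mem_cancel_left hp,
      pow_mem_P h, pow_mem_P h]
    omega
  have hCN : C ≤ Nm (P : Subgroup S) := by
    rintro g (hg | hg)
    · exact le_normalizer hg
    · have := mul_mem (le_normalizer hg) hwN
      rwa [mul_assoc, hw, mul_one] at this
  have hidx : (C.subgroupOf (Nm (P : Subgroup S))).index = 2 := by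
    rw [index_eq_two_iff]
    refine ⟨⟨h0, h.hN⟩, fun b => ?_⟩
    obtain ⟨p, hp, k, hk⟩ := h.nP b b.2
    rw [mem_subgroupOf, mem_subgroupOf, coe_mul, hk, mul_assoc, ← pow_succ, memC p hp, memC p hp]
    rcases Nat.even_or_odd' k with ⟨m, rfl | rfl⟩
    · exact Or.inr ⟨⟨m, rfl⟩, by omega⟩
    · exact Or.inl ⟨⟨m + 1, by ring⟩, by omega⟩
  have hn := normal_of_index_eq_two hidx
  have hconj : ∀ g ∈ Nm (P : Subgroup S), ∀ y ∈ C, g * y * g⁻¹ ∈ C := fun g hg y hy =>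
    hn.conj_mem (⟨y, hCN hy⟩ : Nm (P : Subgroup S)) hy ⟨g, hg⟩
  have hsq : ∀ y ∈ C, y ^ 2 ∈ (P : Subgroup S) := by
    rintro y (hy | hy)
    · exact pow_mem hy 2
    · have := mul_mem hy (hNP w hwN _ hy)
      have e : y * w * (w * (y * w) * w⁻¹) = y * (w * w) * y := by group
      rwa [e, hw, mul_one, ← pow_two] at this
  have hpw : ∀ p ∈ (P : Subgroup S), p * w * p⁻¹ * w ∈ D := by
    intro p hp
    obtain ⟨i, d, hd, rfl⟩ := h.st.Dmax h.hD h.xP h.xD hp
    have h1 := hPD _ (pow_mem h.xP i) _ (D.mul_mem hd (hwD _ (D.inv_mem hd)))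
    have h2 : w * x ^ i = x ^ i * w := (Commute.pow_right hwx i).eq
    have e : x ^ i * d * w * (x ^ i * d)⁻¹ * w =
        x ^ i * (d * (w * d⁻¹ * w⁻¹)) * (w * (x ^ i)⁻¹ * w) := by group
    have e2 : w * (x ^ i)⁻¹ * w = (x ^ i)⁻¹ := by
      have h3 : w * (x ^ i)⁻¹ = (x ^ i)⁻¹ * w := (Commute.inv_right h2).eq
      rw [h3, mul_assoc, hw, mul_one]
    rwa [e, e2]
  have hPK : ∀ p ∈ (P : Subgroup S), ∀ k ∈ K, p * k * p⁻¹ ∈ K := by
    rintro p hp k (hk | hk)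
    · exact Or.inl (hPD p hp k hk)
    · refine Or.inr ?_
      have := D.mul_mem (hPD p hp _ hk) (hpw p hp)
      have e : p * (k * w) * p⁻¹ * (p * w * p⁻¹ * w) = p * k * (w * w) * p⁻¹ * w := by group
      rwa [e, hw, mul_one] at this
  have hwK : w ∈ K := Or.inr (by rw [hw]; exact D.one_mem)
  have hKn : (K.subgroupOf C).Normal := by
    refine ⟨fun k hk c => ?_⟩
    rw [mem_subgroupOf] at hk ⊢
    show (c : S) * k * (c : S)⁻¹ ∈ K
    rcases c.2 with hc | hc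
    · exact hPK _ hc _ hk
    · have := hPK _ hc _ (K.mul_mem (K.mul_mem (K.inv_mem hwK) hk) hwK)
      have e : (c : S) * w * (w⁻¹ * k * w) * ((c : S) * w)⁻¹ = c * k * (c : S)⁻¹ := by group
      rwa [e] at this
  have hxC : x ∈ C := Or.inl h.xP
  set xb : C ⧸ K.subgroupOf C := QuotientGroup.mk ⟨x, hxC⟩ with hxb
  have hgen : ∀ y : C ⧸ K.subgroupOf C, y ∈ zpowers xb := by
    intro y
    obtain ⟨c, rfl⟩ := QuotientGroup.mk_surjective y
    have key : ∃ i : ℕ, (x ^ i)⁻¹ * c ∈ K := by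
      rcases c.2 with hc | hc
      · obtain ⟨i, d, hd, e⟩ := h.st.Dmax h.hD h.xP h.xD hc
        exact ⟨i, Or.inl (by rw [e, inv_mul_cancel_left]; exact hd)⟩
      · obtain ⟨i, d, hd, e⟩ := h.st.Dmax h.hD h.xP h.xD hc
        exact ⟨i, Or.inr (by rw [mul_assoc, e, inv_mul_cancel_left]; exact hd)⟩
    obtain ⟨i, hi⟩ := key
    refine ⟨(i : ℤ), ?_⟩
    show xb ^ (i : ℤ) = _
    rw [zpow_natCast, hxb, ← QuotientGroup.mk_pow, QuotientGroup.eq]
    exact hi
  have hox : orderOf xb = 5 := by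
    refine orderOf_eq_prime ?_ fun e => ?_
    · rw [hxb, ← QuotientGroup.mk_pow, QuotientGroup.eq_one_iff, mem_subgroupOf]
      show x ^ 5 ∈ K
      rw [h.st.pow5 h.xP]; exact K.one_mem
    · rw [hxb, QuotientGroup.eq_one_iff, mem_subgroupOf] at e
      rcases e with e | e
      · exact h.xD e
      · have e' : x * h0 ^ 2 ∈ (P : Subgroup S) := h.hD.1 e
        rw [mul_mem_cancel_left h.xP, pow_mem_P h] at e'
        omega
  have hζ := Complex.isPrimitiveRoot_exp 5 (by norm_num)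
  set ζ : ℂˣ := (hζ.isUnit (by norm_num)).unit with hζdef
  have hoζ : orderOf ζ = 5 := by
    rw [← orderOf_units, hζdef, IsUnit.unit_spec]
    exact hζ.eq_orderOf.symm
  have hdv : orderOf ζ ∣ orderOf xb := by rw [hoζ, hox]
  set lam : C →* ℂˣ := (monoidHomOfForallMemZpowers hgen hdv).comp
    (QuotientGroup.mk' (K.subgroupOf C)) with hlam
  have hlx : lam ⟨x, hxC⟩ = ζ := monoidHomOfForallMemZpowers_apply_gen hgen hdv
  have hl5 : ∀ y : C, lam y ^ 2 = 1 → lam y = 1 := by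
    intro y hy
    obtain ⟨k, hk⟩ := hgen (QuotientGroup.mk y)
    have h5 : lam y ^ 5 = 1 := by
      rw [hlam, MonoidHom.comp_apply, ← map_pow, QuotientGroup.mk'_apply, ← hk, ← zpow_natCast,
        ← zpow_mul, mul_comm, zpow_mul, zpow_natCast, ← hox, pow_orderOf_eq_one, one_zpow, map_one]
    rw [show 5 = 2 * 2 + 1 from rfl, pow_succ, pow_mul, hy, one_pow, one_mul] at h5
    exact h5
  have hlD : ∀ y : C, lam y ≠ 1 → (y : S) ^ 2 ∉ D := by
    intro y hy hyD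
    apply hy
    apply hl5
    rw [← map_pow, hlam, MonoidHom.comp_apply, QuotientGroup.mk'_apply,
      (QuotientGroup.eq_one_iff _).2 (show y ^ 2 ∈ K.subgroupOf C from Or.inl hyD), map_one]
  have hTI : ∀ (g : S) (y : C), lam y ≠ 1 → g * y * g⁻¹ ∈ C → g ∈ Nm (P : Subgroup S) := by
    intro g y hy hg
    refine conj_N h (hsq _ y.2) (hlD y hy) ?_
    rw [← conj_pow]
    exact hsq _ hg
  have how : orderOf w = 2 := by
    rw [hwdef, orderOf_pow_of_dvd (by norm_num) (by rw [h.oh]; norm_num), h.oh]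
  refine bs C (Nm (P : Subgroup S)) hCN hconj hidx lam h.hN ?_ hxC h.hx ?_ hTI how ?_ ?_
  · have := memC 1 (one_mem _) 1
    rw [one_mul, pow_one] at this
    rw [this]; norm_num
  · rw [hlx, Ne, ← orderOf_dvd_iff_pow_eq_one, hoζ]; norm_num
  · intro g y hy e
    apply hlD y hy
    rw [← e, conj_pow, pow_two, hw, mul_one, mul_inv_cancel]
    exact D.one_mem
  · intro b g y hy e
    set u := g * w * g⁻¹ with hu
    have huy : u * y * u⁻¹ = (y : S)⁻¹ := by
      rw [← e, hu]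
      have e1 : g * w * g⁻¹ * (g * (b * w * b⁻¹ * w) * g⁻¹) * (g * w * g⁻¹)⁻¹ =
          g * (w * b * w * b⁻¹) * g⁻¹ := by group
      have e2 : (g * (b * w * b⁻¹ * w) * g⁻¹)⁻¹ = g * (w⁻¹ * b * w⁻¹ * b⁻¹) * g⁻¹ := by group
      rw [e1, e2, hwi]
    have huN := hTI u y hy (by rw [huy]; exact C.inv_mem y.2)
    have hu2 : u * u = 1 := by
      have : u * u = g * (w * w) * g⁻¹ := by rw [hu]; group
      rw [this, hw, mul_one, mul_inv_cancel]
    obtain ⟨p, hp, k, hk⟩ := h.nP u huN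
    have huC : u ∈ C := by
      rw [hk, memC p hp]
      have h1 : p * (h0 ^ k * p * (h0 ^ k)⁻¹) * h0 ^ (k + k) = u * u := by rw [hk, pow_add]; group
      have h2 : p * (h0 ^ k * p * (h0 ^ k)⁻¹) * h0 ^ (k + k) ∈ (P : Subgroup S) := by
        rw [h1, hu2]; exact one_mem _
      rw [mul_mem_cancel_left (mul_mem hp (hNP _ (pow_mem h.hN k) p hp)), pow_mem_P h] at h2
      omega
    apply hy
    apply hl5
    have h3 : (⟨u, huC⟩ : C) * y * (⟨u, huC⟩ : C)⁻¹ = y⁻¹ := Subtype.ext huy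
    have h4 := congrArg lam h3
    rw [map_mul, map_mul, map_inv, map_inv, mul_inv_cancel_comm] at h4
    rw [pow_two]
    nth_rewrite 1 [h4]
    exact inv_mul_cancel _

end Cfsg.Agent.MCF

theorem Cfsg.Agent.MCX.Fb.false {S : Type*} [Group S] [Finite S] {P : Sylow 5 S} {z : S}
    {D : Subgroup S} {h0 a x : S} (h : Cfsg.Agent.MCX.Fb P z D h0 a x) : False :=
  Cfsg.Agent.MCF.main h
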